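import Cfsg.Agent.H94.Meet.Defs

/-!
The data of an invariant family of automizers on a strongly closed subgroup of a saturated system.
-/

set_option autoImplicit false

namespace Cfsg.Agent.H24.InvMap

open Cfsg Cfsg.FusionSystem
open Cfsg.Agent.H93 (Mor)
open Cfsg.Agent.H94.Meet (TCentric)

variable {Ω : Type*} [Group Ω] {S : Subgroup Ω}

/-- An invariant family of automizers on the subgroups of a strongly closed subgroup. -/
structure Data (p : ℕ) (F : FusionSystem S) (T : Subgroup Ω) (𝒜 : (U : Subgroup Ω) → Subgroup (MulAut U)) :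
    Prop where
  isPGroup : IsPGroup p S
  saturated : F.IsSaturated p
  closed : F.StronglyClosed T
  le_autGroup : ∀ U : Subgroup Ω, U ≤ T → 𝒜 U ≤ F.autGroup U
  inner : ∀ (U : Subgroup Ω) (a : MulAut U) (t : Ω), U ≤ T → t ∈ normalizerIn T U →
    (∀ x : U, ((a x : U) : Ω) = t * x * t⁻¹) → a ∈ 𝒜 U
  conj : ∀ (U U' : Subgroup Ω) (φ : Ω → Ω) (hφ : Mor F U U' φ) (a : MulAut U) (a' : MulAut U'), U ≤ T →
    a ∈ 𝒜 U → (∀ x : U, φ ((a x : U) : Ω) = ((a' ⟨φ x, hφ.map_mem x.2⟩ : U') : Ω)) → a' ∈ 𝒜 U'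

variable {p : ℕ} {F : FusionSystem S} {T : Subgroup Ω} {𝒜 : (U : Subgroup Ω) → Subgroup (MulAut U)}

theorem Data.le (h : Data p F T 𝒜) : T ≤ S := h.closed.1

theorem Data.le_autGroup' (h : Data p F T 𝒜) {U : Subgroup Ω} (hU : TCentric F T U) : 𝒜 U ≤ F.autGroup U :=
  h.le_autGroup U hU.1

theorem Data.conj' (h : Data p F T 𝒜) {U U' : Subgroup Ω} (hU : U ≤ T) {φ : Ω → Ω}
    (hφ : Mor F U U' φ) {a : MulAut U} (ha : a ∈ 𝒜 U) {a' : MulAut U'}
    (he : ∀ x : U, φ ((a x : U) : Ω) = ((a' ⟨φ x, hφ.map_mem x.2⟩ : U') : Ω)) : a' ∈ 𝒜 U' :=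
  h.conj U U' φ hφ a a' hU ha he

theorem Data.inner' (h : Data p F T 𝒜) {U : Subgroup Ω} (hU : U ≤ T) {a : MulAut U} {t : Ω}
    (ht : t ∈ normalizerIn T U) (he : ∀ x : U, ((a x : U) : Ω) = t * x * t⁻¹) : a ∈ 𝒜 U :=
  h.inner U a t hU ht he

end Cfsg.Agent.H24.InvMap
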