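import Cfsg.Agent.H24.InvMap.Defs
import Cfsg.Agent.H93.FamilyClimb

/-! The inv as a generated system and its Frattini property. -/

set_option autoImplicit false
set_option linter.unusedSectionVars false

namespace Cfsg.Agent.H24.InvMap

open Cfsg Cfsg.FusionSystem
open Cfsg.Agent.H94.Meet (TCentric ActsIn actsIn_iff exists_conjAut le_of_mor_closed)
open Cfsg.Agent.H94 (exists_autInducedBy mem_normalizer_of_forall_conj_mem isPGroup_autInducedBy fullyNormalized_spec)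
open Cfsg.Agent.H93 (Mor)

variable {Ω : Type*} [Group Ω] {S T : Subgroup Ω} {F : FusionSystem S} {𝒜 : (U : Subgroup Ω) → Subgroup (MulAut U)}
  {p : ℕ}

/-- The inv: the least system over the intersection containing the automizers of the centric subgroups. -/
def invSystem (F : FusionSystem S) (T : Subgroup Ω) (𝒜 : (U : Subgroup Ω) → Subgroup (MulAut U)) (hT : T ≤ S) :
    FusionSystem T where
  Hom Q := {φ | φ ∈ F.Hom Q ∧ Q ≤ T ∧ (∀ x, φ x ∈ T) ∧
    ∀ D : FusionSystem T, (∀ (R : Subgroup Ω) (a : MulAut R), TCentric F T R →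
      a ∈ 𝒜 R → R.subtype.comp a.toMonoidHom ∈ D.Hom R) → φ ∈ D.Hom Q}
  le_of_mem h := ⟨h.2.1, h.2.2.1⟩
  injective_of_mem h := F.injective_of_mem h.1
  conj_mem := fun {Q g} hQ hg => ⟨F.conj_mem (hQ.trans hT) (hT hg), hQ,
    fun x => Subgroup.mul_mem _ (Subgroup.mul_mem _ hg (hQ x.2)) (Subgroup.inv_mem _ hg),
    fun D _ => D.conj_mem hQ hg⟩
  comp_mem := fun h1 h2 h => ⟨F.comp_mem h1.1 h2.1 h, h1.2.1, fun x => h2.2.2.1 _,
    fun D hD => D.comp_mem (h1.2.2.2 D hD) (h2.2.2.2 D hD) h⟩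
  inv_mem := fun {Q φ} h => ⟨H93.invHom φ (F.injective_of_mem h.1), ⟨H93.invHom_mem h.1,
    fun y hy => by obtain ⟨x, rfl⟩ := hy; exact h.2.2.1 x,
    fun y => h.2.1 (H93.invHom_mem_src φ _ y),
    fun D hD => H93.invHom_mem (h.2.2.2 D hD)⟩, fun x => H93.invHom_apply φ _ x _⟩

theorem invSystem_le {hT : T ≤ S} (P : Subgroup Ω) :
    (invSystem F T 𝒜 hT).Hom P ⊆ F.Hom P :=
  fun _ h => h.1

theorem mor_toF {hT : T ≤ S} {P P' : Subgroup Ω} {f : Ω → Ω}
    (h : Mor (invSystem F T 𝒜 hT) P P' f) : Mor F P P' f := by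
  obtain ⟨φ, hφ, hr, hv⟩ := h
  exact ⟨φ, hφ.1, hr, hv⟩

variable [Finite S] [Fact p.Prime]

theorem Data.tCentric_top (h : Data p F T 𝒜) : TCentric F T T := by
  refine ⟨le_rfl, fun R hR => ?_⟩
  obtain ⟨φ, hφ, rfl⟩ := hR
  have := H96.finite_of_le h.le
  have hle : φ.range ≤ T := by
    rintro _ ⟨x, rfl⟩
    exact h.closed.2 _ le_rfl φ hφ x
  rw [Subgroup.eq_of_le_of_card_ge hle (H93.card_range (F.injective_of_mem hφ)).ge]
  exact inf_le_left

/-- The automizers are made of maps of the inv. -/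
theorem actsIn_inv (h : Data p F T 𝒜) {U : Subgroup Ω} (hU : TCentric F T U) {a : MulAut U}
    (ha : a ∈ 𝒜 U) : ActsIn (invSystem F T 𝒜 h.le) U a := by
  refine (actsIn_iff hU.1).2 ((H96.mem_autGroup _ hU.1).2 ⟨?_, hU.1, fun x => hU.1 (a x).2, fun D hD => hD U a hU ha⟩)
  exact (H96.mem_autGroup F (hU.1.trans h.le)).1 (Data.le_autGroup' h hU ha)

/-- Induction along the generation of the inv. -/
theorem inv_induction (h : Data p F T 𝒜) {Φ : Subgroup Ω → Subgroup Ω → (Ω → Ω) → Prop}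
    (congr : ∀ (R R' : Subgroup Ω) (f f' : Ω → Ω), (∀ x ∈ R, f x = f' x) → Φ R R' f → Φ R R' f')
    (gen : ∀ (Q R R' : Subgroup Ω) (f : Ω → Ω) (a : MulAut Q), TCentric F T Q → a ∈ 𝒜 Q → R ≤ Q →
      (∀ x : Q, f x = ((a x : Q) : Ω)) → Mor (invSystem F T 𝒜 h.le) R R' f → Φ R R' f)
    (comp : ∀ (R R' R'' : Subgroup Ω) (f f' : Ω → Ω), Mor (invSystem F T 𝒜 h.le) R R' f → Mor (invSystem F T 𝒜 h.le) R' R'' f' →
      Φ R R' f → Φ R' R'' f' → Φ R R'' (fun x => f' (f x)))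
    (inv : ∀ (R R' : Subgroup Ω) (f f' : Ω → Ω), Mor (invSystem F T 𝒜 h.le) R R' f → Mor (invSystem F T 𝒜 h.le) R' R f' →
      (∀ x ∈ R, f' (f x) = x) → Φ R R' f → Φ R' R f') :
    ∀ R R' f, Mor (invSystem F T 𝒜 h.le) R R' f → Φ R R' f := by
  obtain ⟨D, hD⟩ : ∃ D, D = invSystem F T 𝒜 h.le := ⟨_, rfl⟩
  rw [← hD] at gen comp inv ⊢
  have hT := h.le
  let W : FusionSystem T :=
    { Hom := fun Q => {φ | φ ∈ D.Hom Q ∧ ∀ R R' f, R ≤ Q → (∀ x : Q, φ x = f x) → Mor D R R' f → Φ R R' f}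
      le_of_mem := fun h => D.le_of_mem h.1
      injective_of_mem := fun h => D.injective_of_mem h.1
      conj_mem := by
        intro Q g hQ hg
        refine ⟨D.conj_mem hQ hg, fun R R' f hRQ hf hfR => ?_⟩
        have := H96.finite_of_le hT
        obtain ⟨a, ha, hae⟩ := exists_autInducedBy (P := T) hg (Subgroup.le_normalizer hg)
        have e : ∀ x ∈ R, g * x * g⁻¹ = f x := fun x hx => hf ⟨x, hRQ hx⟩
        refine congr R R' _ f e (gen T R R' _ a h.tCentric_top ?_ (hRQ.trans hQ) (fun x => (hae x).symm)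
          (hfR.congr fun x hx => (e x hx).symm))
        exact h.inner' le_rfl ⟨hg, Subgroup.le_normalizer hg⟩ hae
      comp_mem := by
        intro Q Q' φ ψ hφ hψ hv
        refine ⟨D.comp_mem hφ.1 hψ.1 hv, fun R R' f hRQ hf hfR => ?_⟩
        obtain ⟨f₁, hf₁, hf₁e⟩ := H93.exists_mor hφ.1 rfl
        obtain ⟨f₂, hf₂, hf₂e⟩ := H93.exists_mor hψ.1 rfl
        obtain ⟨R₁, -, hfR₁⟩ := hf₁.restrict hRQ
        have hR₁Q' : R₁ ≤ Q' := by
          intro y hy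
          obtain ⟨x, hx, rfl⟩ := hfR₁.surj hy
          rw [show f₁ x = _ from hf₁e ⟨x, hRQ hx⟩]
          exact hv _
        have e : ∀ x ∈ R, f₂ (f₁ x) = f x := by
          intro x hx
          rw [show f₁ x = _ from hf₁e ⟨x, hRQ hx⟩, show f₂ (φ ⟨x, hRQ hx⟩) = _ from hf₂e ⟨_, hv _⟩]
          exact hf ⟨x, hRQ hx⟩
        have hfR₂ : Mor D R₁ R' f₂ := by
          refine hf₂.restrict_eq hR₁Q' (fun y hy => ?_) fun z hz => ?_
          · obtain ⟨x, hx, rfl⟩ := hfR₁.surj hy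
            rw [e x hx]; exact hfR.map_mem hx
          · obtain ⟨x, hx, rfl⟩ := hfR.surj hz
            exact ⟨_, hfR₁.map_mem hx, e x hx⟩
        exact congr R R' _ f e (comp R R₁ R' f₁ f₂ hfR₁ hfR₂
          (hφ.2 R R₁ f₁ hRQ (fun x => (hf₁e x).symm) hfR₁)
          (hψ.2 R₁ R' f₂ hR₁Q' (fun x => (hf₂e x).symm) hfR₂))
      inv_mem := by
        intro Q φ hφ
        obtain ⟨ψ, hψ, he⟩ := D.inv_mem hφ.1
        refine ⟨ψ, ⟨hψ, fun R R' f hRQ hf hfR => ?_⟩, he⟩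
        obtain ⟨f₁, hf₁, hf₁e⟩ := H93.exists_mor hφ.1 rfl
        have e : ∀ z ∈ Q, f (f₁ z) = z := by
          intro z hz
          rw [show f₁ z = _ from hf₁e ⟨z, hz⟩]
          exact (hf _).symm.trans (he ⟨z, hz⟩)
        have e' : ∀ x ∈ R, f x ∈ Q ∧ f₁ (f x) = x := by
          intro x hx
          obtain ⟨z, rfl⟩ := hRQ hx
          rw [← hf₁e z, e z z.2]
          exact ⟨z.2, rfl⟩
        have hR'Q : R' ≤ Q := by
          intro y hy
          obtain ⟨x, hx, rfl⟩ := hfR.surj hy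
          exact (e' x hx).1
        have hfR' : Mor D R' R f₁ := by
          refine hf₁.restrict_eq hR'Q (fun y hy => ?_) fun x hx => ⟨f x, hfR.map_mem hx, (e' x hx).2⟩
          obtain ⟨x, hx, rfl⟩ := hfR.surj hy
          rw [(e' x hx).2]; exact hx
        exact inv R' R f₁ f hfR' hfR (fun y hy => e y (hR'Q hy))
          (hφ.2 R' R f₁ hR'Q (fun x => (hf₁e x).symm) hfR') }
  have hgen : ∀ (R : Subgroup Ω) (a : MulAut R), TCentric F T R → a ∈ 𝒜 R →
      R.subtype.comp a.toMonoidHom ∈ W.Hom R := fun R a hR ha => by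
    refine ⟨?_, fun R' R'' f hR' hf hfR => gen R R' R'' f a hR ha hR' (fun x => (hf x).symm) hfR⟩
    rw [hD]
    exact (H96.mem_autGroup _ hR.1).1 ((actsIn_iff hR.1).1 (actsIn_inv h hR ha) )
  intro R R' f hf
  obtain ⟨φ, hφ, hr, hv⟩ := id hf
  have hφ' : φ ∈ W.Hom R := by
    rw [hD] at hφ
    exact hφ.2.2.2 W hgen
  exact hφ'.2 R R' f le_rfl hv hf

/-- The automorphisms of the intersection in the ambient system permute the maps of the inv. -/
theorem mor_inv_conj (h : Data p F T 𝒜) {a : Ω → Ω} (ha : Mor F T T a) :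
    ∀ (R R' : Subgroup Ω) (f : Ω → Ω), Mor (invSystem F T 𝒜 h.le) R R' f →
      ∀ (V V' : Subgroup Ω), Mor F R V a → Mor F R' V' a →
        ∃ g, Mor (invSystem F T 𝒜 h.le) V V' g ∧ ∀ x ∈ R, g (a x) = a (f x) := by
  refine inv_induction h (fun R R' f f' e hΦ V V' hV hV' => ?_) ?_ ?_ ?_
  · obtain ⟨g, hg, hge⟩ := hΦ V V' hV hV'
    exact ⟨g, hg, fun x hx => (hge x hx).trans (congrArg a (e x hx))⟩
  · intro Q R R' f b hQ hb hRQ hfe hf V V' hV hV'
    obtain ⟨Q', hQ'T, haQ⟩ := ha.restrict hQ.1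
    obtain ⟨c, hce⟩ := exists_conjAut haQ b
    obtain ⟨g, hg, hge⟩ := actsIn_inv h (hQ.of_mor h.closed haQ) (Data.conj' h hQ.1 haQ hb hce)
    have e : ∀ x ∈ R, g (a x) = a (f x) := fun x hx => by
      rw [show g (a x) = _ from hge ⟨a x, haQ.map_mem (hRQ hx)⟩, ← hce ⟨x, hRQ hx⟩, ← hfe ⟨x, hRQ hx⟩]
    refine ⟨g, hg.restrict_eq (fun y hy => ?_) (fun y hy => ?_) (fun y hy => ?_), e⟩
    · obtain ⟨x, hx, rfl⟩ := hV.surj hy
      exact haQ.map_mem (hRQ hx)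
    · obtain ⟨x, hx, rfl⟩ := hV.surj hy
      rw [e x hx]
      exact hV'.map_mem (hf.map_mem hx)
    · obtain ⟨x', hx', rfl⟩ := hV'.surj hy
      obtain ⟨x, hx, rfl⟩ := hf.surj hx'
      exact ⟨a x, hV.map_mem hx, e x hx⟩
  · intro R R' R'' f f' hf hf' hΦ hΦ' V V'' hV hV''
    obtain ⟨V', -, hV'⟩ := ha.restrict hf.le_right
    obtain ⟨g, hg, hge⟩ := hΦ V V' hV hV'
    obtain ⟨g', hg', hge'⟩ := hΦ' V' V'' hV' hV''
    refine ⟨fun x => g' (g x), hg'.comp hg, fun x hx => ?_⟩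
    show g' (g (a x)) = a (f' (f x))
    rw [hge x hx, hge' _ (hf.map_mem hx)]
  · intro R R' f f' hf hf' he hΦ V' V hV' hV
    obtain ⟨g, hg, hge⟩ := hΦ V V' hV hV'
    obtain ⟨gi, hgi, hgi1, -⟩ := hg.exists_inv
    refine ⟨gi, hgi, fun y hy => ?_⟩
    obtain ⟨x, hx, rfl⟩ := hf.surj hy
    rw [he x hx, ← hge x hx]
    exact hgi1 _ (hV.map_mem hx)

/-- `f` on `P` is a map of the inv followed by an automorphism of the intersection in `X`. -/
def Dec {T' : Subgroup Ω} (F : FusionSystem S) (𝒜 : (U : Subgroup Ω) → Subgroup (MulAut U))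
    (hT : T ≤ S) (X : FusionSystem T') (P : Subgroup Ω) (f : Ω → Ω) : Prop :=
  ∃ (a d : Ω → Ω) (Z : Subgroup Ω), Mor X T T a ∧ Mor (invSystem F T 𝒜 hT) P Z d ∧
    ∀ x ∈ P, f x = a (d x)

section Decomposition

variable {T' : Subgroup Ω} {X : FusionSystem T'}

theorem Dec.congr {hT : T ≤ S} {P : Subgroup Ω} {f g : Ω → Ω} (h : Dec F 𝒜 hT X P f)
    (e : ∀ x ∈ P, f x = g x) : Dec F 𝒜 hT X P g := by
  obtain ⟨a, d, Z, ha, hd, hf⟩ := h
  exact ⟨a, d, Z, ha, hd, fun x hx => (e x hx).symm.trans (hf x hx)⟩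

theorem Dec.restrict {hT : T ≤ S} {P R : Subgroup Ω} {f : Ω → Ω} (h : Dec F 𝒜 hT X P f)
    (hR : R ≤ P) : Dec F 𝒜 hT X R f := by
  obtain ⟨a, d, Z, ha, hd, hf⟩ := h
  obtain ⟨Z', -, hd'⟩ := hd.restrict hR
  exact ⟨a, d, Z', ha, hd', fun x hx => hf x (hR hx)⟩

theorem mor_sub {X : FusionSystem T'} (hXF : ∀ P, X.Hom P ⊆ F.Hom P) {P P' : Subgroup Ω} {f : Ω → Ω}
    (h : Mor X P P' f) : Mor F P P' f := by
  obtain ⟨φ, hφ, hr, hv⟩ := h
  exact ⟨φ, hXF P hφ, hr, hv⟩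

theorem Dec.comp (h : Data p F T 𝒜) (hXF : ∀ P, X.Hom P ⊆ F.Hom P) {P Q : Subgroup Ω} {f g : Ω → Ω}
    (hf : Dec F 𝒜 h.le X P f) (hg : Dec F 𝒜 h.le X Q g) (hPQ : ∀ x ∈ P, f x ∈ Q) :
    Dec F 𝒜 h.le X P (fun x => g (f x)) := by
  obtain ⟨a, d, Z, ha, hd, hfe⟩ := hf
  obtain ⟨b, e, W, hb, he, hge⟩ := hg
  have hZT := hd.le_right
  obtain ⟨aZ, haZT, haZ⟩ := (mor_sub hXF ha).restrict hZT
  have haZQ : aZ ≤ Q := fun y hy => by
    obtain ⟨z, hz, rfl⟩ := haZ.surj hy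
    obtain ⟨x, hx, rfl⟩ := hd.surj hz
    rw [← hfe x hx]
    exact hPQ x hx
  obtain ⟨W', hW', heZ⟩ := he.restrict haZQ
  obtain ⟨ai, hai, hai1, -⟩ := ha.exists_inv
  have haiZ : Mor F aZ Z ai := by
    refine (mor_sub hXF hai).restrict_eq haZT (fun y hy => ?_) fun z hz => ?_
    · obtain ⟨z, hz, rfl⟩ := haZ.surj hy
      rwa [hai1 z (hZT hz)]
    · exact ⟨a z, haZ.map_mem hz, hai1 z (hZT hz)⟩
  obtain ⟨V', -, haiW⟩ := (mor_sub hXF hai).restrict heZ.le_right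
  obtain ⟨e', he', hee⟩ := mor_inv_conj h (mor_sub hXF hai) _ _ _ heZ Z V' haiZ haiW
  refine ⟨fun x => b (a x), fun x => e' (d x), V', hb.comp ha, he'.comp hd, fun x hx => ?_⟩
  have haz : a (d x) ∈ aZ := haZ.map_mem (hd.map_mem hx)
  have h1 := hee _ haz
  rw [hai1 _ (hZT (hd.map_mem hx))] at h1
  show g (f x) = b (a (e' (d x)))
  rw [h1, hfe x hx, hge _ (haZQ haz)]
  obtain ⟨-, -, h3⟩ := ha.exists_inv
  have hey : e (a (d x)) ∈ T := heZ.le_right (heZ.map_mem haz)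
  obtain ⟨z, hz, hze⟩ := ha.surj hey
  rw [← hze, hai1 z hz]

theorem Dec.inv (h : Data p F T 𝒜) (hXF : ∀ P, X.Hom P ⊆ F.Hom P) {P P' : Subgroup Ω} {f g : Ω → Ω}
    (hf : Dec F 𝒜 h.le X P f) (hfm : Mor F P P' f) (he : ∀ x ∈ P, g (f x) = x) :
    Dec F 𝒜 h.le X P' g := by
  obtain ⟨a, d, Z, ha, hd, hfe⟩ := hf
  obtain ⟨di, hdi, hdi1, -⟩ := hd.exists_inv
  obtain ⟨ai, hai, hai1, -⟩ := ha.exists_inv
  obtain ⟨aZ, -, haZ⟩ := (mor_sub hXF ha).restrict hd.le_right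
  obtain ⟨aP, -, haP⟩ := (mor_sub hXF ha).restrict hdi.le_right
  obtain ⟨d', hd', hde⟩ := mor_inv_conj h (mor_sub hXF ha) _ _ _ hdi aZ aP haZ haP
  have hPaZ : P' = aZ := by
    ext y
    constructor
    · intro hy
      obtain ⟨x, hx, rfl⟩ := hfm.surj hy
      rw [hfe x hx]
      exact haZ.map_mem (hd.map_mem hx)
    · intro hy
      obtain ⟨z, hz, rfl⟩ := haZ.surj hy
      obtain ⟨x, hx, rfl⟩ := hd.surj hz
      rw [← hfe x hx]
      exact hfm.map_mem hx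
  refine ⟨ai, d', aP, hai, hPaZ ▸ hd', fun y hy => ?_⟩
  obtain ⟨x, hx, rfl⟩ := hfm.surj hy
  rw [he x hx, hfe x hx, hde _ (hd.map_mem hx), hdi1 x hx, hai1 x (hd.le_left hx)]

end Decomposition

/-- `U` has a largest normalizer in `T` among its conjugates. -/
def Top (F : FusionSystem S) (T U : Subgroup Ω) : Prop :=
  ∀ U' : Subgroup Ω, F.IsConj U U' → Nat.card (normalizerIn T U') ≤ Nat.card (normalizerIn T U)

/-- The Sylow property of the automizers at fully normalized subgroups. -/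
def SylowProp (p : ℕ) (F : FusionSystem S) (T : Subgroup Ω) (𝒜 : (U : Subgroup Ω) → Subgroup (MulAut U)) : Prop :=
  ∀ U : Subgroup Ω, TCentric F T U → F.IsFullyNormalized U →
    ¬ p ∣ ((autInducedBy T U).subgroupOf (𝒜 U)).index

theorem Data.autInducedBy_le (h : Data p F T 𝒜) {U : Subgroup Ω} (hU : U ≤ T) :
    autInducedBy T U ≤ 𝒜 U := by
  intro a ha
  obtain ⟨t, ht, hte⟩ := H96.mem_autInducedBy.1 ha
  have := H96.finite_of_le (hU.trans h.le)
  exact h.inner' hU ⟨ht, mem_normalizer_of_forall_conj_mem fun x hx => by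
    rw [← hte ⟨x, hx⟩]; exact Subtype.mem _⟩ hte

theorem Top.sylow (h : Data p F T 𝒜) (hsyl : SylowProp p F T 𝒜) {U : Subgroup Ω}
    (hU : TCentric F T U) (hn : Top F T U) :
    ¬ p ∣ ((autInducedBy T U).subgroupOf (𝒜 U)).index := by
  have hUS := hU.1.trans h.le
  obtain ⟨U₀, hconj, hU₀⟩ := H93.exists_isFullyNormalized F hUS
  obtain ⟨π, hπ, -, himg⟩ := H93.exists_map_to_fullyNormalized h.isPGroup h.saturated hU₀ hconj
  obtain ⟨f, hf, hfe⟩ := H93.exists_mor hπ rfl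
  have hUN := H93.le_normalizerIn hUS
  have hfU : Mor F U U₀ f := by
    refine hf.restrict_eq hUN (fun x hx => ?_) fun y hy => ?_
    · rw [show f x = _ from hfe ⟨x, hUN hx⟩, ← himg]
      exact H93.apply_mem_imgIn hx
    · rw [← himg] at hy
      obtain ⟨x, hx, rfl⟩ := H93.mem_imgIn.1 hy
      exact ⟨x, hx, hfe x⟩
  have hU₀c := hU.of_mor h.closed hfU
  have hNS : normalizerIn T U ≤ normalizerIn S U := fun x hx => ⟨h.le hx.1, hx.2⟩
  obtain ⟨N, -, hfN⟩ := hf.restrict hNS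
  obtain rfl : N = normalizerIn T U₀ := by
    have hfin : Finite ↥(normalizerIn T U₀) := H96.finite_of_le (S := S) (inf_le_left.trans h.le)
    refine Subgroup.eq_of_le_of_card_ge (fun y hy => ?_) ?_
    · obtain ⟨x, hx, rfl⟩ := hfN.surj hy
      refine ⟨?_, (hf.map_mem_normalizerIn hfU hUN (hNS hx) hx.2).2⟩
      rw [show f x = _ from hfe ⟨x, hNS hx⟩]
      exact H93.StronglyClosed.apply_mem h.closed hπ ⟨x, hNS hx⟩ hx.1
    · rw [← hfN.card_eq]
      exact hn _ hconj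
  obtain ⟨ψ, hψ, hψr, hψv⟩ := id hfU
  obtain ⟨e, hee⟩ : ∃ e : U ≃* U₀, ∀ x : U, ((e x : U₀) : Ω) = f x :=
    ⟨H93.homEquiv ψ (F.injective_of_mem hψ) hψr, fun x => hψv x⟩
  obtain ⟨c, hc⟩ : ∃ c : MulAut U →* MulAut U₀, c = (MulAut.congr e).toMonoidHom := ⟨_, rfl⟩
  have hcv : ∀ (b : MulAut U) (x : U), f ((b x : U) : Ω) = (((c b) ⟨f x, hfU.map_mem x.2⟩ : U₀) : Ω) := by
    intro b x
    subst hc
    show _ = ((e (b (e.symm ⟨f x, _⟩)) : U₀) : Ω)
    rw [show (⟨f x, hfU.map_mem x.2⟩ : U₀) = e x from Subtype.ext (hee x).symm, e.symm_apply_apply, hee]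
  have hci : Function.Injective c := hc ▸ (MulAut.congr e).injective
  obtain ⟨fi, hfi, hfi1, -⟩ := hfU.exists_inv
  have hA : (𝒜 U).map c = 𝒜 U₀ := by
    refine le_antisymm ?_ fun b hb => ?_
    · rintro _ ⟨b, hb, rfl⟩
      exact Data.conj' h hU.1 hfU hb (hcv b)
    · obtain ⟨b₀, hb₀⟩ := exists_conjAut hfi b
      refine ⟨b₀, Data.conj' h hU₀c.1 hfi hb hb₀, MulEquiv.ext fun y => ?_⟩
      obtain ⟨x, hx, hxe⟩ := hfU.surj y.2
      rw [show y = ⟨f x, hfU.map_mem hx⟩ from Subtype.ext hxe.symm]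
      refine Subtype.ext ((hcv b₀ ⟨x, hx⟩).symm.trans ?_)
      have h1 := hb₀ ⟨f x, hfU.map_mem hx⟩
      have h2 : (⟨fi (f x), hfi.map_mem (hfU.map_mem hx)⟩ : U) = ⟨x, hx⟩ := Subtype.ext (hfi1 x hx)
      rw [h2] at h1
      rw [← h1]
      obtain ⟨z, hz, hze⟩ := hfU.surj (b ⟨f x, hfU.map_mem hx⟩).2
      rw [← hze, hfi1 z hz]
  have := H96.finite_of_le hUS
  have := H96.finite_of_le hfU.le_right
  have hB : (autInducedBy T U).map c = autInducedBy T U₀ := by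
    refine le_antisymm ?_ fun b hb => ?_
    · rintro _ ⟨b, hb, rfl⟩
      obtain ⟨t, ht, hte⟩ := H96.mem_autInducedBy.1 hb
      have htN : t ∈ normalizerIn T U := ⟨ht, mem_normalizer_of_forall_conj_mem fun x hx => by
        rw [← hte ⟨x, hx⟩]; exact Subtype.mem _⟩
      refine H96.mem_autInducedBy.2 ⟨f t, (hfN.map_mem htN).1, fun y => ?_⟩
      obtain ⟨x, hx, hxe⟩ := hfU.surj y.2
      rw [show y = ⟨f x, hfU.map_mem hx⟩ from Subtype.ext hxe.symm, ← hcv b ⟨x, hx⟩, hte,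
        hf.map_conj (hNS htN) (hUN hx)]
    · obtain ⟨t, ht, hte⟩ := H96.mem_autInducedBy.1 hb
      have htN : t ∈ normalizerIn T U₀ := ⟨ht, mem_normalizer_of_forall_conj_mem fun x hx => by
        rw [← hte ⟨x, hx⟩]; exact Subtype.mem _⟩
      obtain ⟨s, hs, rfl⟩ := hfN.surj htN
      obtain ⟨b₀, hb₀, hb₀e⟩ := exists_autInducedBy (P := U) hs.1 hs.2
      refine ⟨b₀, hb₀, MulEquiv.ext fun y => ?_⟩
      obtain ⟨x, hx, hxe⟩ := hfU.surj y.2
      rw [show y = ⟨f x, hfU.map_mem hx⟩ from Subtype.ext hxe.symm]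
      refine Subtype.ext ?_
      rw [hte, ← hcv b₀ ⟨x, hx⟩, hb₀e, hf.map_conj (hNS hs) (hUN hx)]
  have key := hsyl U₀ hU₀c hU₀
  change ¬ p ∣ (autInducedBy T U₀).relIndex (𝒜 U₀) at key
  rwa [← hA, ← hB, Subgroup.relIndex_map_map_of_injective _ _ hci] at key

/-- The Frattini property: in a saturated subsystem `X` covering the ambient one on the intersection, every map
inside the intersection is a map of the inv followed by an automorphism of the intersection in `X`. -/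
theorem exists_decomposition (h : Data p F T 𝒜) (hsyl : SylowProp p F T 𝒜) {T' : Subgroup Ω}
    {X : FusionSystem T'} (hX : X.IsSaturated p) (hXF : ∀ P, X.Hom P ⊆ F.Hom P)
    (hTX : X.StronglyClosed T)
    (hFr : ∀ (P P' : Subgroup Ω) (f : Ω → Ω), P ≤ T → Mor F P P' f → ∃ (a e : Ω → Ω) (Z : Subgroup Ω),
      Mor F T T a ∧ Mor X P Z e ∧ ∀ x ∈ P, f x = a (e x))
    {P P' : Subgroup Ω} {f : Ω → Ω} (hP : P ≤ T) (hf : Mor X P P' f) :
    Dec F 𝒜 h.le X P f := by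
  have hTS := h.le
  have hT'S : T' ≤ S := (F.le_of_mem (hXF T' (H93.subtype_mem X le_rfl))).1
  have := H96.finite_of_le hT'S
  have hTp : IsPGroup p T' := h.isPGroup.to_le hT'S
  have hTT' : T ≤ T' := hTX.1
  have := H96.finite_of_le hTS
  induction hn : Nat.card T' - Nat.card P using Nat.strong_induction_on generalizing P P' f with
  | _ n ih =>
  have hPT' := hP.trans hTT'
  have := H96.finite_of_le (hP.trans hTS)
  have hrec : ∀ {R R' : Subgroup Ω} {g : Ω → Ω}, R ≤ T → Nat.card P < Nat.card R → Mor X R R' g →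
      Dec F 𝒜 h.le X R g := fun {R R' g} hR hlt hg => by
    have := Subgroup.card_le_of_le (hR.trans hTT')
    exact ih _ (by omega) hR hg rfl
  have hXT : ∀ {R R' : Subgroup Ω} {g : Ω → Ω}, R ≤ T → Mor X R R' g → R' ≤ T :=
    fun hR hg y hy => by
      obtain ⟨x, hx, rfl⟩ := hg.surj hy
      obtain ⟨φ, hφ, -, hv⟩ := hg
      rw [← hv ⟨x, hx⟩]
      exact hTX.2 _ hR φ hφ _
  rcases eq_or_lt_of_le hP with rfl | hlt
  · obtain rfl : P' = P := Subgroup.eq_of_le_of_card_ge (hXT le_rfl hf) hf.card_eq.le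
    exact ⟨f, fun x => x, _, hf, Mor.id _ le_rfl, fun x _ => rfl⟩
  obtain ⟨P₀, hconj, hP₀⟩ := H93.exists_isFullyNormalized X hPT'
  obtain ⟨A₀, hA₁, hA₂⟩ : ∃ _ : Unit, X.IsFullyAutomized p P₀ ∧ X.IsReceptive P₀ :=
    ⟨(), H93.IsFullyNormalized.isFullyAutomized_and_receptive hTp hX hP₀⟩
  -- maps onto the representative extend to normalizers
  have hconn : ∀ {R : Subgroup Ω}, R ≤ T → Nat.card R = Nat.card P → X.IsConj R P₀ →
      ∃ π, Mor X R P₀ π ∧ Dec F 𝒜 h.le X R π := by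
    intro R hR hcard hc
    obtain ⟨π, M, hπ, -, hπR⟩ := H93.exists_mor_normalizer hTp hA₁ hA₂ hc
    have hN : normalizerIn T R ≤ normalizerIn T' R := fun x hx => ⟨hTT' hx.1, hx.2⟩
    obtain ⟨M', -, hπN⟩ := hπ.restrict hN
    have hRlt : R < T := lt_of_le_of_ne hR fun e => by
      have := H93.card_lt_card_of_lt hlt hTS
      rw [← hcard, e] at this
      omega
    have := H96.finite_of_le hTS
    have hgt : R < normalizerIn T R := by
      have h2 := H93.lt_inf_normalizer (H93.isPGroup_of_le h.isPGroup hTS) hRlt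
      exact h2
    refine ⟨π, hπR, (hrec inf_le_left ?_ hπN).restrict (H93.le_normalizerIn hR)⟩
    have hl : Nat.card R < Nat.card ↥(normalizerIn T R) :=
      H93.card_lt_card_of_lt hgt (inf_le_left.trans hTS)
    exact hcard.symm.le.trans_lt hl
  obtain ⟨π, hπ, hπd⟩ := hconn hP rfl hconj
  have hP'T := hXT hP hf
  obtain ⟨π', hπ', hπ'd⟩ := hconn hP'T hf.card_eq.symm (H93.isConj_trans (H93.isConj_symm hf.isConj) hconj)
  obtain ⟨πi, hπi, hπi1, -⟩ := hπ.exists_inv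
  obtain ⟨π'i, hπ'i, hπ'i1, -⟩ := hπ'.exists_inv
  -- it is enough to decompose the automorphisms of the representative
  suffices key : Dec F 𝒜 h.le X P₀ (fun x => π' (f (πi x))) by
    have h1 := Dec.comp h hXF hπd key fun x hx => hπ.map_mem hx
    have h2 := Dec.comp h hXF h1 (Dec.inv h hXF hπ'd (mor_sub hXF hπ') hπ'i1) fun x hx => by
      show π' (f (πi (π x))) ∈ P₀
      rw [hπi1 x hx]
      exact hπ'.map_mem (hf.map_mem hx)
    refine h2.congr fun x hx => ?_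
    show π'i (π' (f (πi (π x)))) = f x
    rw [hπi1 x hx, hπ'i1 _ (hf.map_mem hx)]
  have hθ : Mor X P₀ P₀ (fun x => π' (f (πi x))) := hπ'.comp (hf.comp hπi)
  have hP₀T := hXT hP hπ
  have hP₀card : Nat.card P₀ = Nat.card P := hπ.card_eq.symm
  have hP₀lt : P₀ < T := lt_of_le_of_ne hP₀T fun e => by
    have := H93.card_lt_card_of_lt hlt hTS
    rw [← hP₀card, e] at this
    omega
  -- extensions to larger subgroups of the intersection
  have hext : ∀ {θ : Ω → Ω} {M : Subgroup Ω}, Mor X P₀ P₀ θ → M ≤ T → P₀ < P₀ ⊔ M →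
      (∀ m ∈ M, m ∈ normalizerIn T' P₀ ∧ ∃ t ∈ T', ∀ x ∈ P₀, θ (m * x * m⁻¹) = t * θ x * t⁻¹) →
      Dec F 𝒜 h.le X P₀ θ := by
    intro θ M hθ hM hlt' hm
    obtain ⟨θ', M', hθ', hθe, -⟩ := hθ.extend hA₂ hm
    have hle : P₀ ⊔ M ≤ T := sup_le hP₀T hM
    refine ((hrec hle ?_ hθ').restrict le_sup_left).congr fun x hx => hθe x hx
    have := H93.card_lt_card_of_lt hlt' (hle.trans hTS)
    omega
  by_cases hC : centralizerIn T P₀ ≤ P₀
  swap
  · refine hext hθ (inf_le_left : centralizerIn T P₀ ≤ _) (lt_of_le_of_ne le_sup_left fun e => hC ?_)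
      fun m hm => ⟨⟨hTT' hm.1, Subgroup.centralizer_le_normalizer _ hm.2⟩, 1, one_mem _, fun x hx => by
        rw [one_mul, inv_one, mul_one, (H93.mem_centralizerIn.1 hm).2 x hx]⟩
    exact (le_sup_right (a := P₀)).trans e.ge
  -- the representative is centric in the intersection and has a largest normalizer there
  have hmove : ∀ R : Subgroup Ω, F.IsConj P₀ R → ∃ (Z : Subgroup Ω) (a : Ω → Ω),
      X.IsConj P₀ Z ∧ Z ≤ T ∧ Mor F T T a ∧ Mor F Z R a := by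
    intro R hR
    obtain ⟨φ, hφ, hr⟩ := hR
    obtain ⟨r, hr', -⟩ := H93.exists_mor hφ hr
    obtain ⟨a, e, Z, ha, he, hre⟩ := hFr P₀ R r hP₀T hr'
    refine ⟨Z, a, he.isConj, hXT hP₀T he, ha, ha.restrict_eq (hXT hP₀T he) (fun z hz => ?_) fun y hy => ?_⟩
    · obtain ⟨x, hx, rfl⟩ := he.surj hz
      rw [← hre x hx]
      exact hr'.map_mem hx
    · obtain ⟨x, hx, rfl⟩ := hr'.surj hy
      exact ⟨e x, he.map_mem hx, (hre x hx).symm⟩
  have htc : TCentric F T P₀ := by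
    refine ⟨hP₀T, fun R hR y hy => ?_⟩
    obtain ⟨Z, a, hZ, hZT, ha, haZ⟩ := hmove R hR
    obtain ⟨c, M, hc, hM, hcZ⟩ := H93.exists_mor_normalizer hTp hA₁ hA₂ (H93.isConj_symm hZ)
    obtain ⟨z, hz, rfl⟩ := ha.surj hy.1
    have hzC : z ∈ centralizerIn T Z := H93.mem_centralizerIn.2 ⟨hz, fun w hw => by
      refine ha.injOn (Subgroup.mul_mem _ (Subgroup.mul_mem _ hz (hZT hw)) (Subgroup.inv_mem _ hz)) (hZT hw) ?_
      rw [ha.map_conj hz (hZT hw)]
      exact (H93.mem_centralizerIn.1 hy).2 _ (haZ.map_mem hw)⟩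
    have hzN : z ∈ normalizerIn T' Z := ⟨hTT' hz, Subgroup.centralizer_le_normalizer _ hzC.2⟩
    have hZN := H93.le_normalizerIn (hZT.trans hTT')
    have hcz : c z ∈ P₀ := by
      refine hC ⟨?_, (hc.map_mem_centralizerIn hcZ hZN hzN (H93.mem_centralizerIn.1 hzC).2).2⟩
      obtain ⟨χ, hχ, -, hv⟩ := id hc
      rw [← hv ⟨z, hzN⟩]
      exact H93.StronglyClosed.apply_mem hTX hχ ⟨z, hzN⟩ hz
    exact haZ.map_mem ((hc.mem_iff hcZ hZN hzN).1 hcz)
  have htop : Top F T P₀ := by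
    intro R hR
    obtain ⟨Z, a, hZ, hZT, ha, haZ⟩ := hmove R hR
    obtain ⟨c, M, hc, hM, hcZ⟩ := H93.exists_mor_normalizer hTp hA₁ hA₂ (H93.isConj_symm hZ)
    have hNfin : Finite ↥(normalizerIn T P₀) := H96.finite_of_le (S := S) (inf_le_left.trans hTS)
    have hex : ∀ y : normalizerIn T R, ∃ z, ∃ w : normalizerIn T P₀,
        z ∈ normalizerIn T' Z ∧ z ∈ T ∧ a z = y ∧ c z = w := by
      intro y
      obtain ⟨z, hz, hze⟩ := ha.surj y.2.1
      have hzn : z ∈ Subgroup.normalizer (Z : Set Ω) := by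
        have := H96.finite_of_le (hZT.trans hTS)
        refine mem_normalizer_of_forall_conj_mem fun w hw => ?_
        have h1 : a (z * w * z⁻¹) ∈ R := by
          rw [ha.map_conj hz (hZT hw), hze]
          exact (Subgroup.mem_normalizer_iff.1 y.2.2 _).1 (haZ.map_mem hw)
        exact (ha.mem_iff haZ hZT (Subgroup.mul_mem _ (Subgroup.mul_mem _ hz (hZT hw))
          (Subgroup.inv_mem _ hz))).1 h1
      have hzN : z ∈ normalizerIn T' Z := ⟨hTT' hz, hzn⟩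
      obtain ⟨χ, hχ, -, hv⟩ := id hc
      refine ⟨z, ⟨c z, ?_, (hM (hc.map_mem hzN)).2⟩, hzN, hz, hze, rfl⟩
      rw [← hv ⟨z, hzN⟩]
      exact H93.StronglyClosed.apply_mem hTX hχ ⟨z, hzN⟩ hz
    choose zf wf hz1 hz2 hz3 hz4 using hex
    refine Nat.card_le_card_of_injective wf fun y y' e => Subtype.ext ?_
    rw [← hz3, ← hz3]
    refine congrArg a (hc.injOn (hz1 y) (hz1 y') ?_)
    rw [hz4, hz4, e]
  -- the Frattini argument in the automizer
  have hP₀T' := hP₀T.trans hTT'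
  have hP₀fin := H96.finite_of_le hP₀T'
  obtain ⟨G, hG⟩ : ∃ G, G = X.autGroup P₀ := ⟨_, rfl⟩
  have hGF : G ≤ F.autGroup P₀ := fun g hg => by
    rw [hG] at hg
    exact (H96.mem_autGroup F (hP₀T.trans hTS)).2 (hXF _ ((H96.mem_autGroup X hP₀T').1 hg))
  obtain ⟨K, hK⟩ : ∃ K : Subgroup G, K = (𝒜 P₀).subgroupOf G := ⟨_, rfl⟩
  have hKn : K.Normal := by
    refine ⟨fun k hk g => ?_⟩
    rw [hK, Subgroup.mem_subgroupOf] at hk ⊢
    obtain ⟨r, hr, hre⟩ := (actsIn_iff (hP₀T.trans hTS)).2 (hGF g.2)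
    refine Data.conj' h hP₀T hr hk fun x => ?_
    rw [hre, show (⟨r (x : Ω), hr.map_mem x.2⟩ : P₀) = (g : MulAut P₀) x from Subtype.ext (hre x)]
    show _ = ((((g : MulAut P₀) * k * (g : MulAut P₀)⁻¹) ((g : MulAut P₀) x) : P₀) : Ω)
    simp
  obtain ⟨B, hB⟩ : ∃ B : Subgroup K, B = ((autInducedBy T P₀).subgroupOf G).subgroupOf K := ⟨_, rfl⟩
  have hBle : autInducedBy T P₀ ≤ G := by
    rw [hG]
    exact (H93.autInducedBy_mono hTT' P₀).trans (H93.autInducedBy_le_autGroup X hP₀T')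
  have hBp : IsPGroup p B := by
    rw [hB]
    exact ((isPGroup_autInducedBy (h.isPGroup.to_le hTS)).comap_of_injective G.subtype
      Subtype.val_injective).comap_of_injective K.subtype Subtype.val_injective
  have hBidx : ¬ p ∣ B.index := by
    intro hd
    apply Top.sylow h hsyl htc htop
    change p ∣ (autInducedBy T P₀).relIndex (𝒜 P₀)
    rw [hB, hK] at hd
    change p ∣ ((autInducedBy T P₀).subgroupOf G).relIndex ((𝒜 P₀).subgroupOf G) at hd
    refine hd.trans ?_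
    have e1 : ((autInducedBy T P₀).subgroupOf G).relIndex ((𝒜 P₀).subgroupOf G) =
        (autInducedBy T P₀).relIndex (𝒜 P₀ ⊓ G) := by
      rw [← Subgroup.relIndex_map_map_of_injective _ _ (Subgroup.subtype_injective G),
        Subgroup.subgroupOf_map_subtype, Subgroup.subgroupOf_map_subtype, inf_eq_left.2 hBle]
    rw [e1]
    exact Dvd.intro _ (Subgroup.relIndex_mul_relIndex _ _ _
      (le_inf (h.autInducedBy_le hP₀T) hBle) inf_le_left)
  obtain ⟨β, hβ, hβe⟩ := hθ.exists_aut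
  have htop' := Sylow.normalizer_sup_eq_top (hBp.toSylow hBidx)
  have hβmem : (⟨β, hG ▸ hβ⟩ : G) ∈
      Subgroup.normalizer ((B.map K.subtype : Subgroup G) : Set G) ⊔ K := by
    change Subgroup.normalizer ((B.map K.subtype : Subgroup G) : Set G) ⊔ K = ⊤ at htop'
    rw [htop']
    exact Subgroup.mem_top _
  rw [Subgroup.mem_sup_of_normal_right] at hβmem
  obtain ⟨ν, hν, k, hk, hνk⟩ := hβmem
  rw [hK, Subgroup.mem_subgroupOf] at hk
  obtain ⟨d, hd, hde⟩ := actsIn_inv h htc hk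
  obtain ⟨r, hr, hre⟩ := (actsIn_iff hP₀T').2 (hG ▸ ν.2 : (ν : MulAut P₀) ∈ X.autGroup P₀)
  have hdDec : Dec F 𝒜 h.le X P₀ d := ⟨fun x => x, d, P₀, Mor.id X hTT', hd, fun x _ => rfl⟩
  have hrDec : Dec F 𝒜 h.le X P₀ r := by
    have hgt : P₀ < normalizerIn T P₀ := by
      have := H96.finite_of_le hTS
      exact H93.lt_inf_normalizer (H93.isPGroup_of_le h.isPGroup hTS) hP₀lt
    refine hext hr (inf_le_left : normalizerIn T P₀ ≤ _) (hgt.trans_le le_sup_right) fun m hm => ?_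
    refine ⟨⟨hTT' hm.1, hm.2⟩, ?_⟩
    obtain ⟨b, hb, hbe⟩ := exists_autInducedBy (P := P₀) hm.1 hm.2
    have hbB : (⟨b, hBle hb⟩ : G) ∈ B.map K.subtype := by
      refine ⟨⟨⟨b, hBle hb⟩, ?_⟩, ?_, rfl⟩
      · rw [hK]; exact Subgroup.mem_subgroupOf.2 (h.autInducedBy_le hP₀T hb)
      · rw [hB]; exact hb
    obtain ⟨⟨y, hyK⟩, hy, hye⟩ := (Subgroup.mem_normalizer_iff.1 hν _).1 hbB
    rw [hB] at hy
    obtain ⟨t, ht, hte⟩ := H96.mem_autInducedBy.1
      (show (y : MulAut P₀) ∈ autInducedBy T P₀ from hy)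
    refine ⟨t, hTT' ht, fun x hx => ?_⟩
    have hbx : m * x * m⁻¹ = ((b ⟨x, hx⟩ : P₀) : Ω) := (hbe ⟨x, hx⟩).symm
    rw [hbx, hre, show r x = _ from hre ⟨x, hx⟩, ← hte]
    simp only [Subgroup.coe_subtype] at hye
    rw [hye]
    simp
  refine (Dec.comp h hXF hdDec hrDec fun x hx => hd.map_mem hx).congr fun x hx => ?_
  show r (d x) = π' (f (πi x))
  rw [← hβe ⟨x, hx⟩, show (β : MulAut P₀) = (ν : MulAut P₀) * k from congrArg Subtype.val hνk.symm,
    MulAut.mul_apply, ← hre, show d x = _ from hde ⟨x, hx⟩]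

end Cfsg.Agent.H24.InvMap
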