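import Cfsg.Agent.H24.InvMap.Restrict

/-! Elements of the automizer of the inv transporting induced automorphisms lift to maps of the inv. -/

set_option autoImplicit false
set_option linter.unusedSectionVars false

namespace Cfsg.Agent.H24.InvMap

open Cfsg Cfsg.FusionSystem
open Cfsg.Agent.H94.Meet (TCentric ActsIn actsIn_iff exists_conjAut le_of_mor_closed)
open Cfsg.Agent.H94 (exists_autInducedBy mem_normalizer_of_forall_conj_mem isPGroup_autInducedBy fullyNormalized_spec)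
open Cfsg.Agent.H93 (Mor)

variable {Ω : Type*} [Group Ω] {S T : Subgroup Ω} {F : FusionSystem S} {𝒜 : (U : Subgroup Ω) → Subgroup (MulAut U)}
  {p : ℕ}

/-- The facts about single automizers on which the construction rests. -/
structure Hyps (p : ℕ) (F : FusionSystem S) (T : Subgroup Ω) (𝒜 : (U : Subgroup Ω) → Subgroup (MulAut U)) :
    Prop
    extends Data p F T 𝒜 where
  sylow : SylowProp p F T 𝒜
  restrict : RestrictProp p F T 𝒜
  lift : LiftProp p F T 𝒜
  transporter : ∀ U : Subgroup Ω, TransporterProp (𝒜 U) p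

/-- Conjugation by an element of the intersection on a subgroup of it, as a map of the inv. -/
theorem exists_mor_conj (h : Data p F T 𝒜) {W : Subgroup Ω} (hW : W ≤ T) {t : Ω} (ht : t ∈ T) :
    ∃ W', Mor (invSystem F T 𝒜 h.le) W W' (fun x => t * x * t⁻¹) := by
  obtain ⟨W', -, hW'⟩ :=
    (H93.mor_conj (invSystem F T 𝒜 h.le) le_rfl ⟨ht, Subgroup.le_normalizer ht⟩).restrict hW
  exact ⟨W', hW'⟩

variable [Finite S] [Fact p.Prime]

theorem inv_lift (h : Hyps p F T 𝒜) {P : Subgroup Ω} (hP : TCentric F T P)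
    (htop : Top F T P) {k : Ω → Ω} (hk : InA 𝒜 P k) {W : Subgroup Ω} (hPW : P ≤ W)
    (hW : W ≤ normalizerIn T P)
    (hnorm : ∀ w ∈ W, ∃ t ∈ normalizerIn T P, ∀ x ∈ P, k (w * x * w⁻¹) = t * k x * t⁻¹) :
    ∃ (g : Ω → Ω) (W' : Subgroup Ω), Mor (invSystem F T 𝒜 h.le) W W' g ∧ ∀ x ∈ P, g x = k x := by
  have hd : Data p F T 𝒜 := h.toData
  have hT := hd.le
  have hPT := hP.1
  have hPS := hPT.trans hT
  have := H96.finite_of_le hPS
  obtain ⟨A, hA⟩ : ∃ A, A = 𝒜 P := ⟨_, rfl⟩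
  obtain ⟨B, hB⟩ : ∃ B : Subgroup A, B = (autInducedBy T P).subgroupOf A := ⟨_, rfl⟩
  have hBA : autInducedBy T P ≤ A := hA ▸ hd.autInducedBy_le hPT
  have hBp : IsPGroup p B :=
    hB ▸ (isPGroup_autInducedBy (hd.isPGroup.to_le hT)).comap_of_injective _ Subtype.val_injective
  have hidx : ¬ p ∣ B.index := by
    subst hA hB
    exact Top.sylow hd h.sylow hP htop
  let Φ : Subgroup A → A → Prop := fun V a => ∀ W : Subgroup Ω, P ≤ W → W ≤ normalizerIn T P →
    (∀ w ∈ W, ∀ b : A, (∀ x : P, (((b : MulAut P) x : P) : Ω) = w * (x : Ω) * w⁻¹) → b ∈ V) →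
    ∃ (g : Ω → Ω) (W' : Subgroup Ω), Mor (invSystem F T 𝒜 h.le) W W' g ∧
      ∀ x : P, g x = (((a : MulAut P) x : P) : Ω)
  have hind : ∀ {w : Ω}, w ∈ normalizerIn T P →
      ∃ b : A, b ∈ B ∧ ∀ x : P, (((b : MulAut P) x : P) : Ω) = w * (x : Ω) * w⁻¹ := fun {w} hw => by
    obtain ⟨b, hb, hbe⟩ := exists_autInducedBy (P := P) hw.1 hw.2
    refine ⟨⟨b, hBA hb⟩, ?_, hbe⟩
    rw [hB]
    exact hb
  have key : ∀ V a, V ≤ ((hBp.toSylow hidx : Sylow p A) : Subgroup A) →
      V.map (MulAut.conj a).toMonoidHom ≤ ((hBp.toSylow hidx : Sylow p A) : Subgroup A) → Φ V a := by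
    subst hA
    refine h.transporter P (hBp.toSylow hidx) Φ ?_ ?_ ?_ ?_
    · intro V a b hV hVa hVba ha hb W hPW hW hWV
      obtain ⟨g, W', hg, hge⟩ := ha W hPW hW hWV
      have hgP : Mor (invSystem F T 𝒜 h.le) P P g := hg.restrict_eq hPW (fun x hx => by
          rw [show g x = _ from hge ⟨x, hx⟩]; exact Subtype.mem _)
        fun y hy => ⟨((a : MulAut P)⁻¹ ⟨y, hy⟩ : P), Subtype.mem _, by rw [hge]; simp⟩
      have hPW' : P ≤ W' := fun y hy => by
        obtain ⟨x, hx, rfl⟩ := hgP.surj hy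
        exact hg.map_mem (hPW hx)
      have hW'N : W' ≤ normalizerIn T P := fun y hy => by
        obtain ⟨x, hx, rfl⟩ := hg.surj hy
        exact hg.map_mem_normalizerIn hgP hPW hx (hW hx).2
      have hW'V : ∀ w ∈ W', ∀ c : 𝒜 P,
          (∀ x : P, (((c : MulAut P) x : P) : Ω) = w * (x : Ω) * w⁻¹) →
          c ∈ V.map (MulAut.conj a).toMonoidHom := by
        intro w hw c hc
        obtain ⟨x, hx, rfl⟩ := hg.surj hw
        obtain ⟨d, -, hde⟩ := hind (hW hx)
        refine ⟨d, hWV x hx d hde, Subtype.ext (MulEquiv.ext fun y => ?_)⟩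
        obtain ⟨z, rfl⟩ := (a : MulAut P).surjective y
        refine Subtype.ext ?_
        rw [hc]
        simp only [MulEquiv.coe_toMonoidHom, MulAut.conj_apply, Subgroup.coe_mul, Subgroup.coe_inv,
          MulAut.mul_apply]
        rw [show ((a : MulAut P)⁻¹ ((a : MulAut P) z)) = z from (a : MulAut P).symm_apply_apply z, ← hge z,
          ← hg.map_conj hx (hPW z.2), ← hge, hde]
      obtain ⟨g', W'', hg', hge'⟩ := hb W' hPW' hW'N hW'V
      refine ⟨fun x => g' (g x), W'', hg'.comp hg, fun x => ?_⟩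
      show g' (g x) = _
      rw [hge x, hge' _]
      rfl
    · exact fun V V' a hVV' _ _ ha W hPW hW hWV => ha W hPW hW fun w hw b hb => hVV' (hWV w hw b hb)
    · intro V a hV ha W hPW hW hWV
      rw [IsPGroup.toSylow_coe, hB, Subgroup.mem_subgroupOf] at ha
      obtain ⟨t, ht, hte⟩ := H96.mem_autInducedBy.1 ha
      obtain ⟨W', hW'⟩ := exists_mor_conj hd (hW.trans inf_le_left) ht
      exact ⟨_, W', hW', fun x => (hte x).symm⟩
    · intro V a hV haV hap W hPW hW hWV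
      rw [IsPGroup.toSylow_coe] at hV
      -- the subgroup of all elements inducing elements of `V`
      obtain ⟨U₀, f, hU₀, hfP, hfN⟩ := htop.exists_iso hd hPT
      obtain ⟨W₁, hW₁def⟩ : ∃ W₁ : Subgroup Ω, W₁ = Subgroup.closure
          {w : Ω | w ∈ normalizerIn T P ∧ ∃ b ∈ V,
            ∀ x : P, (((b : MulAut P) x : P) : Ω) = w * (x : Ω) * w⁻¹} := ⟨_, rfl⟩
      have hW₁mem : ∀ w, w ∈ W₁ → w ∈ normalizerIn T P ∧ ∃ b ∈ V,
          ∀ x : P, (((b : MulAut P) x : P) : Ω) = w * (x : Ω) * w⁻¹ := by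
        intro w hw
        rw [hW₁def] at hw
        induction hw using Subgroup.closure_induction with
        | mem x hx => exact hx
        | one => exact ⟨Subgroup.one_mem _, 1, V.one_mem, fun x => by simp⟩
        | mul x y _ _ hx hy =>
          obtain ⟨hxN, b, hb, hbe⟩ := hx
          obtain ⟨hyN, c, hc, hce⟩ := hy
          refine ⟨Subgroup.mul_mem _ hxN hyN, b * c, V.mul_mem hb hc, fun z => ?_⟩
          rw [Subgroup.coe_mul, MulAut.mul_apply, hbe, hce]
          group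
        | inv x _ hx =>
          obtain ⟨hxN, b, hb, hbe⟩ := hx
          refine ⟨Subgroup.inv_mem _ hxN, b⁻¹, V.inv_mem hb, fun z => ?_⟩
          obtain ⟨u, hu⟩ : ∃ u, u = ((b⁻¹ : 𝒜 P) : MulAut P) z := ⟨_, rfl⟩
          have h1 : (b : MulAut P) u = z := by rw [hu]; simp
          rw [← hu, ← h1, hbe]
          group
      have hWW₁ : W ≤ W₁ := fun w hw => by
        rw [hW₁def]
        obtain ⟨b, -, hbe⟩ := hind (hW hw)
        exact Subgroup.subset_closure ⟨hW hw, b, hWV w hw b hbe, hbe⟩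
      have hW₁N : W₁ ≤ normalizerIn T P := fun w hw => (hW₁mem w hw).1
      obtain ⟨W₀, hW₀N, hfW⟩ := hfN.restrict hW₁N
      have hU₀c := hP.of_mor hd.closed hfP
      obtain ⟨a₀, ha₀e⟩ := exists_conjAut hfP (a : MulAut P)
      have hA₀ : a₀ ∈ 𝒜 U₀ := Data.conj' hd hPT hfP a.2 ha₀e
      have hPN := H93.le_normalizerIn hPT
      have ha₀p : (orderOf a₀).Coprime p := by
        obtain ⟨ψ, hψ, hψr, hψv⟩ := id hfP
        obtain ⟨e, he⟩ : ∃ e : P ≃* U₀, ∀ x : P, ((e x : U₀) : Ω) = f x :=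
          ⟨H93.homEquiv ψ (F.injective_of_mem hψ) hψr, fun x => hψv x⟩
        rw [show a₀ = MulAut.congr e (a : MulAut P) from MulEquiv.ext fun y => by
          obtain ⟨x, hx, hxe⟩ := hfP.surj y.2
          rw [show y = ⟨f x, hfP.map_mem hx⟩ from Subtype.ext hxe.symm]
          refine Subtype.ext ((ha₀e ⟨x, hx⟩).symm.trans ?_)
          show _ = ((e ((a : MulAut P) (e.symm ⟨f x, _⟩)) : U₀) : Ω)
          rw [show (⟨f x, hfP.map_mem hx⟩ : U₀) = e ⟨x, hx⟩ from Subtype.ext (he ⟨x, hx⟩).symm,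
            e.symm_apply_apply, he], MulEquiv.orderOf_eq, Subgroup.orderOf_coe]
        exact hap
      obtain ⟨c, hc, hcp, hce⟩ := h.lift U₀ W₀ hU₀c hU₀
        (fun y hy => by
          obtain ⟨x, hx, rfl⟩ := hfP.surj hy
          exact hfW.map_mem (hWW₁ (hPW hx)))
        hW₀N a₀ hA₀ ha₀p (by
          intro y hy
          obtain ⟨w, hw, rfl⟩ := hfW.surj hy
          obtain ⟨hwN, b, hb, hbe⟩ := hW₁mem w hw
          have hb' := (Subgroup.mem_normalizer_iff.1 haV b).1 hb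
          have hb'B := hV hb'
          rw [hB, Subgroup.mem_subgroupOf] at hb'B
          obtain ⟨t, ht, hte⟩ := H96.mem_autInducedBy.1 hb'B
          have htN : t ∈ normalizerIn T P := ⟨ht, mem_normalizer_of_forall_conj_mem fun x hx => by
            rw [← hte ⟨x, hx⟩]; exact Subtype.mem _⟩
          have htW : t ∈ W₁ := by
            rw [hW₁def]
            exact Subgroup.subset_closure ⟨htN, _, hb', hte⟩
          refine ⟨f t, hfW.map_mem htW, fun y hy => ?_⟩
          obtain ⟨x, hx, hxe⟩ := hfP.surj y.2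
          have e1 : f w * (y : Ω) * (f w)⁻¹ = f (((b : MulAut P) ⟨x, hx⟩ : P) : Ω) := by
            rw [← hxe, ← hfN.map_conj hwN (hPN hx), ← hbe ⟨x, hx⟩]
          rw [show (⟨_, hy⟩ : U₀) = ⟨f (((b : MulAut P) ⟨x, hx⟩ : P) : Ω), hfP.map_mem (Subtype.mem _)⟩ from
            Subtype.ext e1, show y = ⟨f x, hfP.map_mem hx⟩ from Subtype.ext hxe.symm, ← ha₀e, ← ha₀e ⟨x, hx⟩,
            ← hfN.map_conj htN (hPN (Subtype.mem _)), ← hte]
          simp)
      have hW₀T : W₀ ≤ T := hW₀N.trans inf_le_left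
      obtain ⟨gc, hgc, hgce⟩ := (actsIn_iff (hW₀T.trans hT)).2 (hd.le_autGroup W₀ hW₀T hc)
      have hIn : InA 𝒜 W₀ gc := ⟨c, hc, hgce⟩
      obtain ⟨fi, hfi, hfi1, -⟩ := hfW.exists_inv
      have hback : InA 𝒜 W₁ (fun x => fi (gc (f x))) := hIn.conj hd hW₀T hfi fun y hy => by
        obtain ⟨x, hx, rfl⟩ := hfW.surj hy
        show fi (gc (f (fi (f x)))) = fi (gc (f x))
        rw [hfi1 x hx]
      have hmor := inA_mor hd (hP.mono (hPW.trans hWW₁) (hW₁N.trans inf_le_left)) hback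
      obtain ⟨W', -, hgW⟩ := hmor.restrict hWW₁
      refine ⟨_, W', hgW, fun x => ?_⟩
      show fi (gc (f x)) = _
      rw [show gc (f x) = _ from hgce ⟨f x, hfW.map_mem (hWW₁ (hPW x.2))⟩]
      refine Eq.trans (congrArg fi ((hce ⟨f x, hfP.map_mem x.2⟩).trans (ha₀e x).symm)) ?_
      exact hfi1 _ (hWW₁ (hPW (Subtype.mem _)))
  obtain ⟨a, ha, hae⟩ := hk
  subst hA
  have hVB : (autInducedBy W P).subgroupOf (𝒜 P) ≤
      ((hBp.toSylow hidx : Sylow p (𝒜 P)) : Subgroup _) := by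
    rw [IsPGroup.toSylow_coe, hB]
    exact Subgroup.comap_mono (H93.autInducedBy_mono (hW.trans inf_le_left) P)
  have hVaB : ((autInducedBy W P).subgroupOf (𝒜 P)).map (MulAut.conj ⟨a, ha⟩).toMonoidHom ≤
      ((hBp.toSylow hidx : Sylow p (𝒜 P)) : Subgroup _) := by
    rw [IsPGroup.toSylow_coe, hB]
    rintro _ ⟨b, hb, rfl⟩
    obtain ⟨w, hw, hwe⟩ := H96.mem_autInducedBy.1 (Subgroup.mem_subgroupOf.1 hb)
    obtain ⟨t, ht, hte⟩ := hnorm w hw
    refine H96.mem_autInducedBy.2 ⟨t, ht.1, fun y => ?_⟩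
    obtain ⟨x, rfl⟩ := a.surjective y
    show ((a ((b : MulAut P) (a⁻¹ (a x))) : P) : Ω) = _
    rw [show a⁻¹ (a x) = x from a.symm_apply_apply x, ← hae x, ← hte x x.2, ← hwe x, hae]
  obtain ⟨g, W', hg, hge⟩ := key _ ⟨a, ha⟩ hVB hVaB W hPW hW fun w hw b hb =>
    H96.mem_autInducedBy.2 ⟨w, hw, hb⟩
  exact ⟨g, W', hg, fun x hx => (hge ⟨x, hx⟩).trans (hae ⟨x, hx⟩).symm⟩

end Cfsg.Agent.H24.InvMap
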