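import Cfsg.Agent.H24.InvMap.Gen
import Cfsg.Agent.H50.ControlTransfer

/-! Restrictions of the automizers of the inv. -/

set_option autoImplicit false
set_option linter.unusedSectionVars false

namespace Cfsg.Agent.H24.InvMap

open Cfsg Cfsg.FusionSystem
open Cfsg.Agent.H94.Meet (TCentric ActsIn actsIn_iff exists_conjAut le_of_mor_closed)
open Cfsg.Agent.H94 (exists_autInducedBy mem_normalizer_of_forall_conj_mem isPGroup_autInducedBy fullyNormalized_spec)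
open Cfsg.Agent.H93 (Mor)

variable {Ω : Type*} [Group Ω] {S T : Subgroup Ω} {F : FusionSystem S} {𝒜 : (U : Subgroup Ω) → Subgroup (MulAut U)}
  {p : ℕ}

/-- Restrictions of congruent automorphisms of order prime to `p` are congruent. -/
def RestrictProp (p : ℕ) (F : FusionSystem S) (T : Subgroup Ω) (𝒜 : (U : Subgroup Ω) → Subgroup (MulAut U)) : Prop :=
  ∀ (U R : Subgroup Ω), TCentric F T U → ∀ (hUR : U ≤ R), R ≤ T → ∀ a : MulAut R,
    a ∈ 𝒜 R → (orderOf a).Coprime p → ∀ b : MulAut U,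
      (∀ x : U, ((b x : U) : Ω) = ((a (Subgroup.inclusion hUR x) : R) : Ω)) → b ∈ 𝒜 U

/-- Congruent automorphisms of order prime to `p` lift along their normalized subgroups. -/
def LiftProp (p : ℕ) (F : FusionSystem S) (T : Subgroup Ω) (𝒜 : (U : Subgroup Ω) → Subgroup (MulAut U)) : Prop :=
  ∀ (U W : Subgroup Ω), TCentric F T U → F.IsFullyNormalized U → ∀ (hUW : U ≤ W),
    W ≤ normalizerIn T U → ∀ a : MulAut U, a ∈ 𝒜 U → (orderOf a).Coprime p →
      (∀ w ∈ W, ∃ w' ∈ W, ∀ (x : U) (hx : w * (x : Ω) * w⁻¹ ∈ U),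
        ((a ⟨_, hx⟩ : U) : Ω) = w' * ((a x : U) : Ω) * w'⁻¹) →
      ∃ c : MulAut W, c ∈ 𝒜 W ∧ (orderOf c).Coprime p ∧
        ∀ x : U, ((c (Subgroup.inclusion hUW x) : W) : Ω) = ((a x : U) : Ω)

/-- Sylow subgroups induce transporters from elements of normalizers of order prime to `p`. -/
def TransporterProp (G : Type*) [Group G] (p : ℕ) : Prop :=
  ∀ (P : Sylow p G) (Φ : Subgroup G → G → Prop),
    (∀ W a b, W ≤ (P : Subgroup G) → W.map (MulAut.conj a).toMonoidHom ≤ P →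
      W.map (MulAut.conj (b * a)).toMonoidHom ≤ P → Φ W a → Φ (W.map (MulAut.conj a).toMonoidHom) b → Φ W (b * a)) →
    (∀ W V a, W ≤ V → V ≤ (P : Subgroup G) → V.map (MulAut.conj a).toMonoidHom ≤ P → Φ V a → Φ W a) →
    (∀ W a, W ≤ (P : Subgroup G) → a ∈ (P : Subgroup G) → Φ W a) →
    (∀ W a, W ≤ (P : Subgroup G) → a ∈ Subgroup.normalizer (W : Set G) → (orderOf a).Coprime p → Φ W a) →
    ∀ W a, W ≤ (P : Subgroup G) → W.map (MulAut.conj a).toMonoidHom ≤ P → Φ W a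

/-- `f` on `U` is an element of the automizer of the inv. -/
def InA (𝒜 : (U : Subgroup Ω) → Subgroup (MulAut U)) (U : Subgroup Ω)
    (f : Ω → Ω) : Prop :=
  ∃ k ∈ 𝒜 U, ∀ x : U, f x = ((k x : U) : Ω)

theorem InA.congr {U : Subgroup Ω} {f g : Ω → Ω} (h : InA 𝒜 U f) (e : ∀ x ∈ U, f x = g x) :
    InA 𝒜 U g := by
  obtain ⟨k, hk, hke⟩ := h
  exact ⟨k, hk, fun x => (e x x.2).symm.trans (hke x)⟩

theorem InA.comp {U : Subgroup Ω} {f g : Ω → Ω} (h : InA 𝒜 U f) (h' : InA 𝒜 U g) :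
    InA 𝒜 U (fun x => g (f x)) := by
  obtain ⟨k, hk, hke⟩ := h
  obtain ⟨l, hl, hle⟩ := h'
  refine ⟨l * k, mul_mem hl hk, fun x => ?_⟩
  show g (f x) = _
  rw [hke, hle]
  rfl

theorem InA.map_mem {U : Subgroup Ω} {f : Ω → Ω} (h : InA 𝒜 U f) {x : Ω} (hx : x ∈ U) : f x ∈ U := by
  obtain ⟨k, -, hke⟩ := h
  rw [show f x = _ from hke ⟨x, hx⟩]
  exact Subtype.mem _

theorem InA.inv {U : Subgroup Ω} {f g : Ω → Ω} (h : InA 𝒜 U f) (e : ∀ x ∈ U, g (f x) = x) :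
    InA 𝒜 U g := by
  obtain ⟨k, hk, hke⟩ := h
  refine ⟨k⁻¹, inv_mem hk, fun y => ?_⟩
  obtain ⟨x, rfl⟩ := k.surjective y
  rw [← hke, e x x.2]
  exact congrArg Subtype.val (k.symm_apply_apply x).symm

variable [Finite S] [Fact p.Prime]

/-- Conjugates of elements of the automizer of the inv. -/
theorem InA.conj (h : Data p F T 𝒜) {U U' : Subgroup Ω} (hU : U ≤ T) {φ f g : Ω → Ω}
    (hφ : Mor F U U' φ) (hf : InA 𝒜 U f) (e : ∀ x ∈ U, g (φ x) = φ (f x)) :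
    InA 𝒜 U' g := by
  obtain ⟨k, hk, hke⟩ := hf
  obtain ⟨k', hk'⟩ := exists_conjAut hφ k
  refine ⟨k', Data.conj' h hU hφ hk hk', fun y => ?_⟩
  obtain ⟨x, hx, hxe⟩ := hφ.surj y.2
  rw [show y = ⟨φ x, hφ.map_mem hx⟩ from Subtype.ext hxe.symm, ← hk' ⟨x, hx⟩, e x hx,
    show f x = _ from hke ⟨x, hx⟩]

theorem inA_mor (h : Data p F T 𝒜) {U : Subgroup Ω} (hU : TCentric F T U) {f : Ω → Ω}
    (hf : InA 𝒜 U f) : Mor (invSystem F T 𝒜 h.le) U U f := by
  obtain ⟨k, hk, hke⟩ := hf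
  obtain ⟨g, hg, hge⟩ := actsIn_inv h hU hk
  exact hg.congr fun x hx => (hge ⟨x, hx⟩).trans (hke ⟨x, hx⟩).symm

/-- A largest normalizer is reached by a map onto the normalizer of a fully normalized conjugate. -/
theorem Top.exists_iso (h : Data p F T 𝒜) {U : Subgroup Ω} (hUT : U ≤ T)
    (hn : Top F T U) :
    ∃ (U₀ : Subgroup Ω) (f : Ω → Ω), F.IsFullyNormalized U₀ ∧ Mor F U U₀ f ∧
      Mor F (normalizerIn T U) (normalizerIn T U₀) f := by
  have hUS := hUT.trans h.le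
  obtain ⟨U₀, hconj, hU₀⟩ := H93.exists_isFullyNormalized F hUS
  obtain ⟨π, hπ, -, himg⟩ := H93.exists_map_to_fullyNormalized h.isPGroup h.saturated hU₀ hconj
  obtain ⟨f, hf, hfe⟩ := H93.exists_mor hπ rfl
  have hUN := H93.le_normalizerIn hUS
  have hfU : Mor F U U₀ f := by
    refine hf.restrict_eq hUN (fun x hx => ?_) fun y hy => ?_
    · rw [show f x = _ from hfe ⟨x, hUN hx⟩, ← himg]
      exact H93.apply_mem_imgIn hx
    · rw [← himg] at hy
      obtain ⟨x, hx, rfl⟩ := H93.mem_imgIn.1 hy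
      exact ⟨x, hx, hfe x⟩
  have hNS : normalizerIn T U ≤ normalizerIn S U := fun x hx => ⟨h.le hx.1, hx.2⟩
  obtain ⟨N, -, hfN⟩ := hf.restrict hNS
  obtain rfl : N = normalizerIn T U₀ := by
    have hfin : Finite ↥(normalizerIn T U₀) := H96.finite_of_le (S := S) (inf_le_left.trans h.le)
    refine Subgroup.eq_of_le_of_card_ge (fun y hy => ?_) ?_
    · obtain ⟨x, hx, rfl⟩ := hfN.surj hy
      refine ⟨?_, (hf.map_mem_normalizerIn hfU hUN (hNS hx) hx.2).2⟩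
      rw [show f x = _ from hfe ⟨x, hNS hx⟩]
      exact H93.StronglyClosed.apply_mem h.closed hπ ⟨x, hNS hx⟩ hx.1
    · rw [← hfN.card_eq]
      exact hn _ hconj
  exact ⟨U₀, f, hU₀, hfU, hfN⟩

/-- Elements of the automizer at `R` which stabilize `U` restrict to elements of the automizer at `U`. -/
theorem inA_restrict (h : Data p F T 𝒜) (hsyl : SylowProp p F T 𝒜) (hres : RestrictProp p F T 𝒜)
    {U R : Subgroup Ω} (hU : TCentric F T U) (hUR : U ≤ R) (hR : R ≤ T) {f : Ω → Ω}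
    (hf : InA 𝒜 R f) (hfU : Mor F U U f) : InA 𝒜 U f := by
  have hRc := hU.mono hUR hR
  have hRS := hR.trans h.le
  have := H96.finite_of_le hRS
  have := H96.finite_of_le (hUR.trans hRS)
  obtain ⟨k, hk, hke⟩ := hf
  -- powers stabilize and restrict
  have hpow : ∀ n : ℕ, ∀ x : R, (x : Ω) ∈ U → (((k ^ n) x : R) : Ω) ∈ U := by
    intro n
    induction n with
    | zero => intro x hx; simpa using hx
    | succ n ih =>
      intro x hx
      rw [pow_succ, MulAut.mul_apply]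
      exact ih _ (by rw [← hke]; exact hfU.map_mem hx)
  have hrestr : ∀ n : ℕ, ∃ b : MulAut U, ∀ x : U,
      ((b x : U) : Ω) = (((k ^ n) (Subgroup.inclusion hUR x) : R) : Ω) := by
    intro n
    obtain ⟨g, hg, hge⟩ := (actsIn_iff hRS).2 (pow_mem (Data.le_autGroup' h hRc hk) n)
    obtain ⟨U', -, hgU⟩ := hg.restrict hUR
    obtain rfl : U' = U := Subgroup.eq_of_le_of_card_ge (fun y hy => by
      obtain ⟨x, hx, rfl⟩ := hgU.surj hy
      rw [show g x = _ from hge ⟨x, hUR hx⟩]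
      exact hpow n _ hx) hgU.card_eq.le
    obtain ⟨b, -, hbe⟩ := hgU.exists_aut
    exact ⟨b, fun x => (hbe x).trans (hge (Subgroup.inclusion hUR x))⟩
  obtain ⟨i, j, hij, ⟨e, he⟩, hj⟩ := H50.exists_p_p'_split (p := p) k
  obtain ⟨bi, hbi⟩ := hrestr i
  obtain ⟨bj, hbj⟩ := hrestr j
  have hbjmem : bj ∈ 𝒜 U := by
    exact hres U R hU hUR hR (k ^ j) (pow_mem hk j) hj bj hbj
  have hbimem : bi ∈ 𝒜 U := by
    obtain ⟨R₀, hconj, hR₀⟩ := H93.exists_isFullyNormalized F hRS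
    obtain ⟨φ, hφ, hr⟩ := id hconj
    obtain ⟨q, hq, -⟩ := H93.exists_mor hφ hr
    have hR₀c := hRc.of_mor h.closed hq
    have := H96.finite_of_le hq.le_right
    obtain ⟨c, hce⟩ := exists_conjAut hq (k ^ i)
    have hcA : c ∈ 𝒜 R₀ := Data.conj' h hR hq (pow_mem hk i) hce
    obtain ⟨B, hB⟩ : ∃ B : Subgroup (𝒜 R₀),
        B = (autInducedBy T R₀).subgroupOf (𝒜 R₀) := ⟨_, rfl⟩
    have hBp : IsPGroup p B := hB ▸
      (isPGroup_autInducedBy (h.isPGroup.to_le h.le)).comap_of_injective _ Subtype.val_injective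
    have hBidx : ¬ p ∣ B.index := hB ▸ hsyl R₀ hR₀c hR₀
    have hcp : IsPGroup p (Subgroup.zpowers (⟨c, hcA⟩ : 𝒜 R₀)) := by
      refine IsPGroup.of_card (n := e) ?_
      rw [Nat.card_zpowers, ← Subgroup.orderOf_coe, ← he]
      obtain ⟨ψ, hψ, hψr, hψv⟩ := id hq
      obtain ⟨eq', heq'⟩ : ∃ eq' : R ≃* R₀, ∀ x : R, ((eq' x : R₀) : Ω) = q x :=
        ⟨H93.homEquiv ψ (F.injective_of_mem hψ) hψr, fun x => hψv x⟩
      show orderOf c = _
      rw [show c = MulAut.congr eq' (k ^ i) from MulEquiv.ext fun y => by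
        obtain ⟨x, hx, hxe⟩ := hq.surj y.2
        rw [show y = ⟨q x, hq.map_mem hx⟩ from Subtype.ext hxe.symm]
        refine Subtype.ext ((hce ⟨x, hx⟩).symm.trans ?_)
        show _ = ((eq' ((k ^ i) (eq'.symm ⟨q x, _⟩)) : R₀) : Ω)
        rw [show (⟨q x, hq.map_mem hx⟩ : R₀) = eq' ⟨x, hx⟩ from Subtype.ext (heq' ⟨x, hx⟩).symm,
          eq'.symm_apply_apply, heq'], MulEquiv.orderOf_eq]
    obtain ⟨Q, hQ⟩ := hcp.exists_le_sylow
    obtain ⟨g, hg⟩ := MulAction.exists_smul_eq (𝒜 R₀) Q (hBp.toSylow hBidx)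
    have hcB : g * ⟨c, hcA⟩ * g⁻¹ ∈ B := by
      have : g * ⟨c, hcA⟩ * g⁻¹ ∈ ((g • Q : Sylow p _) : Subgroup (𝒜 R₀)) := by
        rw [Sylow.coe_subgroup_smul]
        exact ⟨_, hQ (Subgroup.mem_zpowers _), rfl⟩
      rw [hg] at this
      exact this
    rw [hB, Subgroup.mem_subgroupOf] at hcB
    obtain ⟨t, ht, hte⟩ := H96.mem_autInducedBy.1 hcB
    obtain ⟨gf, hgf, hgfe⟩ := (actsIn_iff hq.le_right).2 (Data.le_autGroup' h hR₀c g.2)
    have hψm := hgf.comp hq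
    obtain ⟨U₀, hU₀, hψU⟩ := hψm.restrict hUR
    have hU₀T : U₀ ≤ T := le_of_mor_closed h.closed hψU (hUR.trans hR)
    have := H96.finite_of_le (hU₀.trans hq.le_right)
    have htN : t ∈ Subgroup.normalizer (U₀ : Set Ω) := by
      refine mem_normalizer_of_forall_conj_mem fun y hy => ?_
      obtain ⟨x, hx, rfl⟩ := hψU.surj hy
      have hm : (((k ^ i) ⟨x, hUR hx⟩ : R) : Ω) ∈ U := hpow i _ hx
      have h1 := hψU.map_mem hm
      convert h1 using 1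
      show t * gf (q x) * t⁻¹ = gf (q _)
      rw [show gf (q x) = _ from hgfe ⟨q x, hq.map_mem (hUR hx)⟩, ← hte, hce ⟨x, hUR hx⟩, hgfe]
      simp
    obtain ⟨b₀, -, hb₀e⟩ := exists_autInducedBy (P := U₀) ht htN
    obtain ⟨ψi, hψi, hψi1, -⟩ := hψU.exists_inv
    refine h.conj' hU₀T hψi (h.inner' hU₀T ⟨ht, htN⟩ hb₀e) fun y => ?_
    obtain ⟨x, hx, hxe⟩ := hψU.surj y.2
    obtain ⟨y, hy⟩ := y
    simp only at hxe
    subst hxe
    have hval : gf (q ((bi ⟨x, hx⟩ : U) : Ω)) = t * gf (q x) * t⁻¹ := by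
      rw [hbi, hce, show gf (q x) = _ from hgfe ⟨q x, hq.map_mem (hUR hx)⟩, ← hte, hgfe]
      simp
    rw [hb₀e]
    show ψi (t * gf (q x) * t⁻¹) = _
    rw [← hval, hψi1 _ (bi ⟨x, hx⟩).2]
    exact congrArg (fun z : U => ((bi z : U) : Ω)) (Subtype.ext (hψi1 x hx).symm)
  refine ⟨bi * bj, mul_mem hbimem hbjmem, fun x => ?_⟩
  rw [show f x = _ from hke (Subgroup.inclusion hUR x), MulAut.mul_apply, hbi]
  conv_lhs => rw [hij, MulAut.mul_apply]
  exact congrArg (fun z : R => (((k ^ i) z : R) : Ω)) (Subtype.ext (hbj x).symm)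

end Cfsg.Agent.H24.InvMap
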