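import Cfsg.Agent.H24.InvMap.Lift
import Cfsg.Agent.H93.FamilyCriterion

/-! The inv is saturated and its automizers are the prescribed ones. -/

set_option autoImplicit false
set_option linter.unusedSectionVars false

namespace Cfsg.Agent.H24.InvMap

open Cfsg Cfsg.FusionSystem
open Cfsg.Agent.H94.Meet (TCentric ActsIn actsIn_iff exists_conjAut le_of_mor_closed)
open Cfsg.Agent.H94 (exists_autInducedBy mem_normalizer_of_forall_conj_mem isPGroup_autInducedBy fullyNormalized_spec)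
open Cfsg.Agent.H93 (Mor Reach exists_mor_normalizer exists_sylowIn push lt_inf_normalizerIn)

variable {Ω : Type*} [Group Ω] {S T : Subgroup Ω} {F : FusionSystem S} {𝒜 : (U : Subgroup Ω) → Subgroup (MulAut U)}
  {p : ℕ}

/-- The centric subgroups larger than `P` have fully automized receptive conjugates in the inv. -/
def SatC (h : Data p F T 𝒜) (P : Subgroup Ω) : Prop :=
  ∀ X : Subgroup Ω, TCentric F T X → Nat.card P < Nat.card X →
    ∃ Y, (invSystem F T 𝒜 h.le).IsConj X Y ∧ (invSystem F T 𝒜 h.le).IsFullyAutomized p Y ∧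
      (invSystem F T 𝒜 h.le).IsReceptive Y

/-- The automorphisms in the inv of the centric subgroups larger than `P` are the prescribed ones. -/
def GoodC (h : Data p F T 𝒜) (P : Subgroup Ω) : Prop :=
  ∀ X : Subgroup Ω, TCentric F T X → Nat.card P < Nat.card X →
    ∀ θ, Mor (invSystem F T 𝒜 h.le) X X θ → InA 𝒜 X θ

theorem isConj_toF (h : Data p F T 𝒜) {P R : Subgroup Ω}
    (hc : (invSystem F T 𝒜 h.le).IsConj P R) : F.IsConj P R := by
  obtain ⟨φ, hφ, hr⟩ := hc
  exact ⟨φ, hφ.1, hr⟩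

theorem tCentric_of_isConj (h : Data p F T 𝒜) {P R : Subgroup Ω} (hP : TCentric F T P)
    (hR : (invSystem F T 𝒜 h.le).IsConj P R) : TCentric F T R :=
  ⟨H93.isConj_le_right hR, fun V hV => hP.2 V (H93.isConj_trans (isConj_toF h hR) hV)⟩

variable [Finite S] [Fact p.Prime]

theorem reach_climb (h : Data p F T 𝒜) {P : Subgroup Ω} (hPc : TCentric F T P)
    (hP : (invSystem F T 𝒜 h.le).IsFullyNormalized P) (hov : SatC h P) :
    ∀ (n : ℕ) (N N' R : Subgroup Ω) (θ : Ω → Ω), Nat.card ↥T - Nat.card N = n →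
      R < N → N ≤ normalizerIn T R → Mor (invSystem F T 𝒜 h.le) N N' θ →
      N' ≤ normalizerIn T P → Mor (invSystem F T 𝒜 h.le) R P θ →
      Reach (invSystem F T 𝒜 h.le) R P := by
  obtain ⟨D, hD⟩ : ∃ D, D = invSystem F T 𝒜 h.le := ⟨_, rfl⟩
  rw [← hD] at hP ⊢
  have := H96.finite_of_le h.le
  have hTp : IsPGroup p ↥T := h.isPGroup.to_le h.le
  intro n
  induction n using Nat.strong_induction_on with
  | _ n ih =>
  intro N N' R θ hn hRN hN hθ hN' hθR
  rcases eq_or_lt_of_le hN with rfl | hlt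
  · exact ⟨θ, N', hθ, hN', hθR⟩
  have hNS := hθ.le_left
  have hPR : D.IsConj P R := H93.isConj_symm hθR.isConj
  have hcard : Nat.card P < Nat.card N :=
    (H93.isConj_card_eq hPR).symm ▸ H93.card_lt_card_of_lt hRN hNS
  have hN'lt : N' < normalizerIn T P := by
    refine lt_of_le_of_ne hN' fun e => ?_
    have h1 := H93.card_lt_card_of_lt hlt (H93.normalizerIn_le _ R)
    have h2 := hP.2 R hPR
    rw [hθ.card_eq, e] at h1
    omega
  obtain ⟨Ns, hNs, h₁, h₂⟩ : ∃ Y, D.IsConj N Y ∧ D.IsFullyAutomized p Y ∧ D.IsReceptive Y := by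
    subst hD
    exact hov N ((tCentric_of_isConj h hPc hPR).mono hRN.le hNS) hcard
  obtain ⟨a, Ma, ha, hMa, haN⟩ := exists_mor_normalizer hTp h₁ h₂ hNs
  obtain ⟨b, Mb, hb, hMb, hbN⟩ :=
    exists_mor_normalizer hTp h₁ h₂ (H93.isConj_trans (H93.isConj_symm hθ.isConj) hNs)
  have hPN' : P ≤ N' := by
    intro y hy
    obtain ⟨x, hx, rfl⟩ := hθR.surj hy
    exact hθ.map_mem (hRN.le hx)
  obtain ⟨R₁, hR₁, haR⟩ := haN.restrict hRN.le
  obtain ⟨P₁, hP₁, hbP⟩ := hbN.restrict hPN'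
  obtain ⟨P₂, d, -, hd, hdP, hprop⟩ := exists_sylowIn h₁ hP₁
  obtain ⟨ai, hai, hai1, -⟩ := haN.exists_inv
  have haiR : Mor D R₁ R ai := by
    refine hai.restrict_eq hR₁ (fun y hy => ?_) fun x hx => ⟨a x, haR.map_mem hx, hai1 x (hRN.le hx)⟩
    obtain ⟨x, hx, rfl⟩ := haR.surj hy
    rw [hai1 x (hRN.le hx)]; exact hx
  obtain ⟨f, M, hf, hM, hfR, -⟩ := push hTp h₂ hprop ha hMa haN hRN.le hN haR
    (hd.comp (hbN.comp (hθ.comp hai))) (hdP.comp (hbP.comp (hθR.comp haiR)))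
  obtain ⟨g, M', hg, hM', hgP, -⟩ := push hTp h₂ hprop hb hMb hbN hPN' hN' hbP hd hdP
  -- the new representative reaches `P`
  have hT : Reach D P₂ P := by
    obtain ⟨gi, hgi, hgi1, -⟩ := hg.exists_inv
    have hPX : P ≤ normalizerIn T N' ⊓ normalizerIn T P :=
      le_inf (hPN'.trans (H93.le_normalizerIn hθ.le_right)) (H93.le_normalizerIn hP.1)
    have hgiP : Mor D P₂ P gi := by
      refine hgi.restrict_eq ?_ (fun y hy => ?_) fun x hx => ⟨g x, hgP.map_mem hx, hgi1 x (hPX hx)⟩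
      · intro y hy
        obtain ⟨x, hx, rfl⟩ := hgP.surj hy
        exact hg.map_mem (hPX hx)
      · obtain ⟨x, hx, rfl⟩ := hgP.surj hy
        rw [hgi1 x (hPX hx)]; exact hx
    have hlt' := lt_inf_normalizerIn hTp hN'lt
    have hsub : normalizerIn T N' ⊓ normalizerIn T P ≤ T :=
      inf_le_left.trans (H93.normalizerIn_le _ N')
    have hM'S := hg.le_right
    have hc : Nat.card N < Nat.card M' := by
      rw [hθ.card_eq, ← hg.card_eq]
      exact H93.card_lt_card_of_lt hlt' hsub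
    have := Subgroup.card_le_of_le hM'S
    refine ih _ ?_ M' _ P₂ gi rfl ?_ hM' hgi inf_le_right hgiP
    · omega
    · refine lt_of_le_of_ne ?_ ?_
      · intro y hy
        obtain ⟨x, hx, rfl⟩ := hgP.surj hy
        exact hg.map_mem (hPX hx)
      · intro e
        rw [← e, ← hgP.card_eq] at hc
        omega
  obtain ⟨c, Mc, hc, hMc, hcP⟩ := hT
  obtain ⟨Mf, hMf, hcM⟩ := hc.restrict hM
  have hlt'' := lt_inf_normalizerIn hTp hlt
  have hsub : normalizerIn T N ⊓ normalizerIn T R ≤ T :=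
    inf_le_left.trans (H93.normalizerIn_le _ N)
  have hc' := H93.card_lt_card_of_lt hlt'' hsub
  have := Subgroup.card_le_of_le hsub
  refine ih _ ?_ _ Mf R (fun x => c (f x)) rfl (hRN.trans hlt'') inf_le_right (hcM.comp hf)
    (hMf.trans hMc) (hcP.comp hfR)
  omega

theorem reach_of_step (h : Data p F T 𝒜) {P : Subgroup Ω} (hPc : TCentric F T P)
    (hP : (invSystem F T 𝒜 h.le).IsFullyNormalized P) (hov : SatC h P) {N N' R R' : Subgroup Ω} {f : Ω → Ω}
    (hf : Mor (invSystem F T 𝒜 h.le) N N' f) (hRN : R < N)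
    (hfR : Mor (invSystem F T 𝒜 h.le) R R' f) (hR' : Reach (invSystem F T 𝒜 h.le) R' P) :
    Reach (invSystem F T 𝒜 h.le) R P := by
  obtain ⟨a, M, ha, hM, haP⟩ := hR'
  have := H96.finite_of_le h.le
  have hNS := hf.le_left
  have := H93.finite_of_le hNS
  have hlt := H93.lt_inf_normalizer (H93.isPGroup_of_le (h.isPGroup.to_le h.le) hNS) hRN
  obtain ⟨N₀, hN₀⟩ : ∃ N₀, N₀ = N ⊓ Subgroup.normalizer (R : Set Ω) := ⟨_, rfl⟩
  rw [← hN₀] at hlt
  obtain ⟨A, -, hfN⟩ := hf.restrict (hN₀.le.trans inf_le_left)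
  have hA2 : A ≤ normalizerIn T R' := by
    intro y hy
    obtain ⟨x, hx, rfl⟩ := hfN.surj hy
    exact hf.map_mem_normalizerIn hfR hRN.le (hN₀.le hx).1 (hN₀.le hx).2
  obtain ⟨B, hB, haA⟩ := ha.restrict hA2
  exact reach_climb h hPc hP hov _ N₀ B R (fun x => a (f x)) rfl hlt
    (fun x hx => ⟨hNS (hN₀.le hx).1, (hN₀.le hx).2⟩) (haA.comp hfN) (hB.trans hM) (haP.comp hfR)

theorem reach_all (h : Data p F T 𝒜) {P : Subgroup Ω} (hPc : TCentric F T P)
    (hP : (invSystem F T 𝒜 h.le).IsFullyNormalized P) (hov : SatC h P) :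
    ∀ R, (invSystem F T 𝒜 h.le).IsConj P R → Reach (invSystem F T 𝒜 h.le) R P := by
  intro R hR
  have := H96.finite_of_le h.le
  have key := inv_induction h (Φ := fun R R' _ => (invSystem F T 𝒜 h.le).IsConj P R →
      (Reach (invSystem F T 𝒜 h.le) R P ↔ Reach (invSystem F T 𝒜 h.le) R' P))
    (fun _ _ _ _ _ e => e) ?_ (fun _ _ _ _ _ hf _ e e' hc =>
      (e hc).trans (e' (H93.isConj_trans hc hf.isConj)))
    (fun _ _ _ _ hf hf' _ e hc => (e (H93.isConj_trans hc hf'.isConj)).symm)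
  · obtain ⟨φ, hφ, hr⟩ := id hR
    obtain ⟨f, hf, -⟩ := H93.exists_mor hφ hr
    exact (key P R f hf (H93.isConj_refl _ hP.1)).1 (H93.reach_self hP.1)
  · intro Q R R' f a hQ ha hRQ hfe hfR hc
    have hQQ : Mor (invSystem F T 𝒜 h.le) Q Q f := inA_mor h hQ ⟨a, ha, hfe⟩
    rcases eq_or_lt_of_le hRQ with rfl | hlt
    · have e : R' = R := by
        ext y
        constructor
        · intro hy; obtain ⟨x, hx, rfl⟩ := hfR.surj hy; exact hQQ.map_mem hx
        · intro hy; obtain ⟨x, hx, rfl⟩ := hQQ.surj hy; exact hfR.map_mem hx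
      rw [e]
    obtain ⟨fi, hfi, hfi1, -⟩ := hQQ.exists_inv
    have hR'Q : R' ≤ Q := fun y hy => by
      obtain ⟨x, hx, rfl⟩ := hfR.surj hy
      exact hQQ.map_mem (hRQ hx)
    have hfiR : Mor (invSystem F T 𝒜 h.le) R' R fi := by
      refine hfi.restrict_eq hR'Q (fun y hy => ?_) fun x hx => ⟨f x, hfR.map_mem hx, hfi1 x (hRQ hx)⟩
      obtain ⟨x, hx, rfl⟩ := hfR.surj hy
      rw [hfi1 x (hRQ hx)]; exact hx
    refine ⟨fun hr => reach_of_step h hPc hP hov hfi (lt_of_le_of_ne hR'Q fun e => ?_) hfiR hr,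
      fun hr => reach_of_step h hPc hP hov hQQ hlt hfR hr⟩
    have h1 := H93.card_lt_card_of_lt hlt (hQ.1)
    rw [hfR.card_eq, e] at h1
    omega

/-- A map between subgroups of the normalizer of `P` fixing `P` restricts to an element of the automizer. -/
theorem inA_of_extends (h : Hyps p F T 𝒜) {P : Subgroup Ω} (hPc : TCentric F T P)
    (hov : SatC h.toData P) (hgood : GoodC h.toData P)
    (hreach : ∀ R, (invSystem F T 𝒜 h.le).IsConj P R → Reach (invSystem F T 𝒜 h.le) R P) :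
    ∀ (n : ℕ) (N N' : Subgroup Ω) (θ : Ω → Ω), Nat.card ↥T - Nat.card N = n → P < N →
      N ≤ normalizerIn T P → Mor (invSystem F T 𝒜 h.le) N N' θ →
      N' ≤ normalizerIn T P → Mor (invSystem F T 𝒜 h.le) P P θ → InA 𝒜 P θ := by
  have hd : Data p F T 𝒜 := h.toData
  have := H96.finite_of_le hd.le
  have hTp : IsPGroup p ↥T := hd.isPGroup.to_le hd.le
  intro n
  induction n using Nat.strong_induction_on with
  | _ n ih =>
  intro N N' θ hn hPN hN hθ hN' hθP
  have hNS := hθ.le_left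
  have hcN : Nat.card P < Nat.card N := H93.card_lt_card_of_lt hPN hNS
  rcases eq_or_lt_of_le hN with rfl | hlt
  · have := H93.finite_of_le (H93.normalizerIn_le T P)
    obtain rfl : N' = normalizerIn T P := Subgroup.eq_of_le_of_card_ge hN' hθ.card_eq.le
    exact inA_restrict hd h.sylow h.restrict hPc hPN.le inf_le_left
      (hgood _ (hPc.mono hPN.le inf_le_left) hcN θ hθ) (mor_toF hθP)
  have hN'S := hθ.le_right
  have hPN' : P ≤ N' := by
    intro y hy
    obtain ⟨x, hx, rfl⟩ := hθP.surj hy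
    exact hθ.map_mem (hPN.le hx)
  obtain ⟨Ns, hNs, h₁, h₂⟩ := hov N (hPc.mono hPN.le hNS) hcN
  obtain ⟨a, Ma, ha, hMa, haN⟩ := exists_mor_normalizer hTp h₁ h₂ hNs
  obtain ⟨b, Mb, hb, hMb, hbN⟩ :=
    exists_mor_normalizer hTp h₁ h₂ (H93.isConj_trans (H93.isConj_symm hθ.isConj) hNs)
  obtain ⟨R₁, hR₁, haP⟩ := haN.restrict hPN.le
  obtain ⟨P₁, hP₁, hbP⟩ := hbN.restrict hPN'
  obtain ⟨P₂, d, hP₂, hd', hdP, hprop⟩ := exists_sylowIn h₁ hP₁
  obtain ⟨ai, hai, hai1, -⟩ := haN.exists_inv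
  have haiP : Mor (invSystem F T 𝒜 h.le) R₁ P ai := by
    refine hai.restrict_eq hR₁ (fun y hy => ?_) fun x hx => ⟨a x, haP.map_mem hx, hai1 x (hPN.le hx)⟩
    obtain ⟨x, hx, rfl⟩ := haP.surj hy
    rw [hai1 x (hPN.le hx)]; exact hx
  obtain ⟨f, M, hf, hM, hfP, hfN⟩ := push hTp h₂ hprop ha hMa haN hPN.le hN haP
    (hd'.comp (hbN.comp (hθ.comp hai))) (hdP.comp (hbP.comp (hθP.comp haiP)))
  obtain ⟨g, M', hg, hM', hgP, hgN⟩ := push hTp h₂ hprop hb hMb hbN hPN' hN' hbP hd' hdP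
  obtain ⟨c, Mc, hc, hMc, hcP⟩ := hreach P₂ hfP.isConj
  obtain ⟨X, hXdef⟩ : ∃ X, X = normalizerIn T N ⊓ normalizerIn T P := ⟨_, rfl⟩
  obtain ⟨X', hX'def⟩ : ∃ X', X' = normalizerIn T N' ⊓ normalizerIn T P := ⟨_, rfl⟩
  rw [← hXdef] at hf
  rw [← hX'def] at hg
  have hXS : X ≤ T := hXdef.le.trans (inf_le_left.trans (H93.normalizerIn_le _ N))
  have hX'S : X' ≤ T := hX'def.le.trans (inf_le_left.trans (H93.normalizerIn_le _ N'))
  have hNX : N < X := hXdef ▸ lt_inf_normalizerIn hTp hlt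
  have hN'lt : N' < normalizerIn T P := by
    refine lt_of_le_of_ne hN' fun e => ?_
    have h1 := H93.card_lt_card_of_lt hlt (H93.normalizerIn_le _ P)
    rw [hθ.card_eq, e] at h1
    omega
  have hNX' : N' < X' := hX'def ▸ lt_inf_normalizerIn hTp hN'lt
  -- the two outer automorphisms
  have hA : InA 𝒜 P (fun x => c (f x)) := by
    obtain ⟨A, hA, hcA⟩ := hc.restrict hM
    have := Subgroup.card_le_of_le hXS
    have := H93.card_lt_card_of_lt hNX hXS
    refine ih _ ?_ X A _ rfl (hPN.trans hNX) (hXdef.le.trans inf_le_right) (hcA.comp hf) (hA.trans hMc)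
      (hcP.comp hfP)
    omega
  have hB : InA 𝒜 P (fun x => c (g x)) := by
    obtain ⟨A, hA, hcA⟩ := hc.restrict hM'
    have := Subgroup.card_le_of_le hX'S
    have := H93.card_lt_card_of_lt hNX' hX'S
    rw [← hθ.card_eq] at this
    refine ih _ ?_ X' A _ rfl ?_ (hX'def.le.trans inf_le_right) (hcA.comp hg) (hA.trans hMc) (hcP.comp hgP)
    · omega
    · exact lt_of_le_of_ne (hPN'.trans hNX'.le) fun e => by rw [← e] at this; omega
  -- the middle automorphism of `Ns`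
  obtain ⟨fi, hfi, hfi1, -⟩ := hfN.exists_inv
  have hfiP : Mor (invSystem F T 𝒜 h.le) P₂ P fi := by
    refine hfi.restrict_eq hP₂ (fun y hy => ?_)
      fun x hx => ⟨f x, hfP.map_mem hx, hfi1 x (hPN.le hx)⟩
    obtain ⟨x, hx, rfl⟩ := hfP.surj hy
    rw [hfi1 x (hPN.le hx)]; exact hx
  have hγ : Mor (invSystem F T 𝒜 h.le) Ns Ns (fun y => g (θ (fi y))) := hgN.comp (hθ.comp hfi)
  have hγP : Mor (invSystem F T 𝒜 h.le) P₂ P₂ (fun y => g (θ (fi y))) := hgP.comp (hθP.comp hfiP)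
  have hP₂c := tCentric_of_isConj hd hPc hfP.isConj
  have hγ₂ := inA_restrict hd h.sylow h.restrict hP₂c hP₂ h₁.1
    (hgood _ (hP₂c.mono hP₂ h₁.1) (by rwa [← hfN.card_eq]) _ hγ) (mor_toF hγP)
  obtain ⟨ci, hci, hci1, -⟩ := hcP.exists_inv
  have hMid : InA 𝒜 P (fun y => c (g (θ (fi (ci y))))) :=
    hγ₂.conj hd hP₂c.1 (mor_toF hcP) fun x hx => by
      show c (g (θ (fi (ci (c x))))) = c (g (θ (fi x)))
      rw [hci1 x hx]
  obtain ⟨bi, hbi, hbi1, -⟩ := (inA_mor hd hPc hB).exists_inv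
  refine ((hA.comp hMid).comp (hB.inv (g := bi) hbi1)).congr fun x hx => ?_
  show bi (c (g (θ (fi (ci (c (f x))))))) = θ x
  rw [hci1 _ (hfP.map_mem hx), hfi1 x (hPN.le hx)]
  exact hbi1 _ (hθP.map_mem hx)

/-- The automorphisms of a class in the inv, given the larger ones. -/
theorem inA_of_class (h : Hyps p F T 𝒜) {P : Subgroup Ω} (hPc : TCentric F T P)
    (hPlt : P < T)
    (hov : SatC h.toData P) (hgood : GoodC h.toData P)
    (hreach : ∀ R, (invSystem F T 𝒜 h.le).IsConj P R → Reach (invSystem F T 𝒜 h.le) R P) :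
    ∀ θ, Mor (invSystem F T 𝒜 h.le) P P θ → InA 𝒜 P θ := by
  have hd : Data p F T 𝒜 := h.toData
  have := H96.finite_of_le hd.le
  have hTp : IsPGroup p ↥T := hd.isPGroup.to_le hd.le
  obtain ⟨D, hD⟩ : ∃ D, D = invSystem F T 𝒜 h.le := ⟨_, rfl⟩
  have key := inv_induction hd (Φ := fun R R' f => D.IsConj P R → ∀ a Ma b Mb,
      Mor D (normalizerIn T R) Ma a → Ma ≤ normalizerIn T P → Mor D R P a →
      Mor D (normalizerIn T R') Mb b → Mb ≤ normalizerIn T P → Mor D R' P b →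
      ∃ k, InA 𝒜 P k ∧ ∀ x ∈ R, k (a x) = b (f x))
    ?congr ?gen ?comp ?inv
  · intro θ hθ
    have hid : Mor D (normalizerIn T P) (normalizerIn T P) (fun x => x) :=
      Mor.id D (H93.normalizerIn_le _ P)
    obtain ⟨k, hk, hke⟩ := key P P θ hθ (H93.isConj_refl D hPc.1) _ _ _ _ hid le_rfl
      (Mor.id D hPc.1) hid le_rfl (Mor.id D hPc.1)
    exact hk.congr hke
  case congr =>
    intro R R' f f' he hΦ hc a Ma b Mb ha hMa haP hb hMb hbP
    obtain ⟨k, hk, hke⟩ := hΦ hc a Ma b Mb ha hMa haP hb hMb hbP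
    exact ⟨k, hk, fun x hx => by rw [← he x hx]; exact hke x hx⟩
  case comp =>
    intro R R' R'' f f' hf _ hΦ hΦ' hc a Ma b Mb ha hMa haP hb hMb hbP
    rw [← hD] at hf
    have hc' := H93.isConj_trans hc hf.isConj
    obtain ⟨e, Me, he, hMe, heP⟩ := hreach R' (hD ▸ hc')
    rw [← hD] at he heP
    obtain ⟨k, hk, hke⟩ := hΦ hc a Ma e Me ha hMa haP he hMe heP
    obtain ⟨l, hl, hle⟩ := hΦ' hc' e Me b Mb he hMe heP hb hMb hbP
    refine ⟨_, hk.comp hl, fun x hx => ?_⟩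
    show l (k (a x)) = b (f' (f x))
    rw [hke x hx, hle _ (hf.map_mem hx)]
  case inv =>
    intro R R' f f' hf hf' he hΦ hc a Ma b Mb ha hMa haP hb hMb hbP
    rw [← hD] at hf'
    obtain ⟨k, hk, hke⟩ := hΦ (H93.isConj_trans hc hf'.isConj) b Mb a Ma hb hMb hbP ha hMa haP
    obtain ⟨ki, hki, hki1, -⟩ := (inA_mor hd hPc hk).exists_inv
    refine ⟨ki, hk.inv hki1, fun y hy => ?_⟩
    obtain ⟨x, hx, rfl⟩ := hf.surj hy
    rw [he x hx, ← hke x hx]
    exact hki1 _ (hbP.map_mem hx)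
  case gen =>
    intro Q R R' f q hQ hq hRQ hfe hfR hc a Ma b Mb ha hMa haP hb hMb hbP
    subst hD
    have hQQ : Mor (invSystem F T 𝒜 h.le) Q Q f := inA_mor hd hQ ⟨q, hq, hfe⟩
    have hRT := hfR.le_left
    have hRcard : Nat.card R = Nat.card P := haP.card_eq
    have hRN := H93.le_normalizerIn hRT
    have hRlt : R < T := lt_of_le_of_ne hRT fun e => by
      have := H93.card_lt_card_of_lt hPlt (le_refl T)
      rw [← hRcard, e] at this
      omega
    have hgt : R < normalizerIn T R := H93.lt_inf_normalizer hTp hRlt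
    -- maps between larger parts of the normalizers
    have hstep : ∀ {N₀ : Subgroup Ω} {θ : Ω → Ω}, R < N₀ → N₀ ≤ normalizerIn T R →
        (∃ A, A ≤ normalizerIn T R' ∧ Mor (invSystem F T 𝒜 h.le) N₀ A θ) →
        Mor (invSystem F T 𝒜 h.le) R R' θ →
        ∃ k, InA 𝒜 P k ∧ ∀ x ∈ R, k (a x) = b (θ x) := by
      intro N₀ θ hlt₀ hN₀ ⟨A, hA, hθA⟩ hθR
      obtain ⟨B, hB, hbA⟩ := hb.restrict hA
      obtain ⟨X, hX, haX⟩ := ha.restrict hN₀
      obtain ⟨ai, hai, hai1, -⟩ := haX.exists_inv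
      have hPX : P ≤ X := fun y hy => by
        obtain ⟨x, hx, rfl⟩ := haP.surj hy
        exact haX.map_mem (hlt₀.le hx)
      have haiR : Mor (invSystem F T 𝒜 h.le) P R ai := by
        refine hai.restrict_eq hPX (fun y hy => ?_) fun x hx => ⟨a x, haP.map_mem hx, hai1 x (hlt₀.le hx)⟩
        obtain ⟨x, hx, rfl⟩ := haP.surj hy
        rw [hai1 x (hlt₀.le hx)]; exact hx
      have hPX' : P < X := by
        refine lt_of_le_of_ne hPX fun e => ?_
        have h1 := H93.card_lt_card_of_lt hlt₀ (hN₀.trans inf_le_left)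
        rw [haX.card_eq, ← e, haP.card_eq] at h1
        omega
      refine ⟨_, inA_of_extends h hPc hov hgood hreach _ X B _ rfl hPX' (hX.trans hMa)
        (hbA.comp (hθA.comp hai)) (hB.trans hMb) (hbP.comp (hθR.comp haiR)), fun x hx => ?_⟩
      show b (θ (ai (a x))) = b (θ x)
      rw [hai1 x (hlt₀.le hx)]
    rcases eq_or_lt_of_le hRQ with rfl | hlt
    · have e : R' = R := by
        ext y
        constructor
        · intro hy; obtain ⟨x, hx, rfl⟩ := hfR.surj hy; exact hQQ.map_mem hx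
        · intro hy; obtain ⟨x, hx, rfl⟩ := hQQ.surj hy; exact hfR.map_mem hx
      subst e
      obtain ⟨k, hk, hke⟩ := hstep hgt le_rfl ⟨_, le_rfl, Mor.id _ (H93.normalizerIn_le _ R')⟩ (Mor.id _ hRT)
      obtain ⟨ai, -, hai1, -⟩ := haP.exists_inv
      have hg : InA 𝒜 P (fun y => a (f (ai y))) :=
        InA.conj hd hQ.1 (mor_toF haP) ⟨q, hq, hfe⟩ fun x hx => by
          show a (f (ai (a x))) = a (f x)
          rw [hai1 x hx]
      refine ⟨_, hg.comp hk, fun x hx => ?_⟩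
      show k (a (f (ai (a x)))) = b (f x)
      rw [hai1 x hx, hke _ (hfR.map_mem hx)]
    · have hQS := hQ.1
      have := H93.finite_of_le hQS
      have hlt₀ := H93.lt_inf_normalizer (H93.isPGroup_of_le hTp hQS) hlt
      obtain ⟨A, -, hfN⟩ := hQQ.restrict (inf_le_left : Q ⊓ Subgroup.normalizer (R : Set Ω) ≤ Q)
      refine hstep hlt₀ (fun x hx => ⟨hQS hx.1, hx.2⟩) ⟨A, fun y hy => ?_, hfN⟩ hfR
      obtain ⟨x, hx, rfl⟩ := hfN.surj hy
      exact hQQ.map_mem_normalizerIn hfR hRQ hx.1 hx.2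

/-- The automorphisms of `T` in the inv. -/
theorem inA_top (h : Hyps p F T 𝒜) :
    ∀ θ, Mor (invSystem F T 𝒜 h.le) T T θ → InA 𝒜 T θ := by
  have hd : Data p F T 𝒜 := h.toData
  have := H96.finite_of_le hd.le
  have key := inv_induction hd (Φ := fun R _ f => R = T → InA 𝒜 T f)
    (fun R _ f f' e hΦ hR => (hΦ hR).congr fun x hx => e x (hR ▸ hx)) ?_ ?_ ?_
  · exact fun θ hθ => key _ _ θ hθ rfl
  · intro Q R R' f a hQ ha hRQ hfe _ hR
    subst hR
    obtain rfl : Q = R := le_antisymm hQ.1 hRQ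
    exact ⟨a, ha, hfe⟩
  · intro R R' R'' f f' hf _ hΦ hΦ' hR
    subst hR
    exact (hΦ rfl).comp (hΦ' (Subgroup.eq_of_le_of_card_ge hf.le_right hf.card_eq.le))
  · intro R R' f f' hf hf' he hΦ hR'
    subst hR'
    have hR : R = R' := Subgroup.eq_of_le_of_card_ge hf.le_left hf.card_eq.ge
    exact (hΦ hR).inv fun x hx => he x (hR ▸ hx)

/-- A fully normalized subgroup of the inv has a largest normalizer in the ambient class. -/
theorem top_of_fullyNormalized (h : Hyps p F T 𝒜) {P : Subgroup Ω}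
    (hP : (invSystem F T 𝒜 h.le).IsFullyNormalized P) : Top F T P := by
  have hd : Data p F T 𝒜 := h.toData
  intro R hR
  obtain ⟨φ, hφ, hr⟩ := hR
  obtain ⟨f, hf, -⟩ := H93.exists_mor hφ hr
  obtain ⟨a, d, Z, ha, hdm, he⟩ := exists_decomposition hd h.sylow h.saturated (fun _ _ hx => hx) hd.closed
    (fun P P' f hP hf => ⟨fun x => x, f, P', Mor.id F hd.le, hf, fun x _ => rfl⟩) hP.1 hf
  refine le_trans ?_ (hP.2 Z hdm.isConj)
  have hZT := hdm.le_right
  have : Finite ↥(normalizerIn T Z) := H96.finite_of_le (S := S) (inf_le_left.trans hd.le)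
  have hex : ∀ y : normalizerIn T R, ∃ z : normalizerIn T Z, a z = y := by
    intro y
    obtain ⟨z, hz, hze⟩ := ha.surj y.2.1
    have := H96.finite_of_le (hZT.trans hd.le)
    refine ⟨⟨z, hz, mem_normalizer_of_forall_conj_mem fun w hw => ?_⟩, hze⟩
    have hwT := hZT hw
    obtain ⟨x, hx, rfl⟩ := hdm.surj hw
    have h1 : a (z * d x * z⁻¹) ∈ R := by
      rw [ha.map_conj hz hwT, hze, ← he x hx]
      exact (Subgroup.mem_normalizer_iff.1 y.2.2 _).1 (hf.map_mem hx)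
    obtain ⟨x', hx', hx'e⟩ := hf.surj h1
    rw [he x' hx'] at hx'e
    rw [← ha.injOn (hZT (hdm.map_mem hx')) (Subgroup.mul_mem _ (Subgroup.mul_mem _ hz hwT)
      (Subgroup.inv_mem _ hz)) hx'e]
    exact hdm.map_mem hx'
  choose g hg using hex
  exact Nat.card_le_card_of_injective g fun y y' e => Subtype.ext (by rw [← hg y, ← hg y', e])

/-- A class with the prescribed automizer and connecting maps has a fully automized receptive member. -/
theorem fullyAutomized_receptive (h : Hyps p F T 𝒜) {P : Subgroup Ω} (hPc : TCentric F T P)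
    (hP : (invSystem F T 𝒜 h.le).IsFullyNormalized P)
    (hgood : ∀ θ, Mor (invSystem F T 𝒜 h.le) P P θ → InA 𝒜 P θ)
    (hreach : ∀ R, (invSystem F T 𝒜 h.le).IsConj P R → Reach (invSystem F T 𝒜 h.le) R P) :
    (invSystem F T 𝒜 h.le).IsFullyAutomized p P ∧ (invSystem F T 𝒜 h.le).IsReceptive P := by
  have hd : Data p F T 𝒜 := h.toData
  have hT := hd.le
  have hPS := hPc.1.trans hT
  have := H96.finite_of_le hT
  have := H96.finite_of_le hPS
  have htop := top_of_fullyNormalized h hP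
  have hA : (invSystem F T 𝒜 h.le).autGroup P = 𝒜 P := by
    ext a
    constructor
    · intro ha
      obtain ⟨g, hg, hge⟩ := (actsIn_iff hPc.1).2 ha
      obtain ⟨k, hk, hke⟩ := hgood g hg
      rwa [show a = k from MulEquiv.ext fun x => Subtype.ext ((hge x).symm.trans (hke x))]
    · intro ha
      exact (actsIn_iff hPc.1).1 (actsIn_inv hd hPc ha)
  refine ⟨⟨hPc.1, ?_⟩, hPc.1, fun Q φ hφ hr => ?_⟩
  · rw [hA]
    have hp : IsPGroup p ((autInducedBy T P).subgroupOf (𝒜 P)) :=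
      (isPGroup_autInducedBy (hd.isPGroup.to_le hT)).comap_of_injective _ Subtype.val_injective
    exact ⟨hp.toSylow (Top.sylow hd h.sylow hPc htop), rfl⟩
  obtain ⟨f, hf, hfe⟩ := H93.exists_mor hφ hr
  obtain ⟨a, Ma, ha, hMa, haP⟩ := hreach Q (H93.isConj_symm ⟨φ, hφ, hr⟩)
  obtain ⟨ai, hai, hai1, -⟩ := haP.exists_inv
  have hk := hgood _ (hf.comp hai)
  have hQT := hf.le_left
  have hNN : extender T Q φ ≤ normalizerIn T Q := H93.extender_le_normalizerIn _ Q φ
  obtain ⟨W, hW, haW⟩ := ha.restrict hNN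
  have hQN := H93.le_normalizerIn hQT
  obtain ⟨g, W', hg, hge⟩ := inv_lift h hPc htop hk (W := W) (fun y hy => by
      obtain ⟨x, hx, rfl⟩ := haP.surj hy
      exact haW.map_mem (H93.le_extender hφ hx))
    (hW.trans hMa) fun w hw => by
      obtain ⟨n, hn, rfl⟩ := haW.surj hw
      obtain ⟨hnN, t, ht, hte⟩ := H93.mem_extender.1 hn
      have key : ∀ x ∈ Q, f (n * x * n⁻¹) = t * f x * t⁻¹ := fun x hx => by
        have hm := H93.mem_normalizerIn_conj hnN hx
        rw [show f (n * x * n⁻¹) = φ ⟨_, hm⟩ from hfe ⟨_, hm⟩, show f x = φ ⟨x, hx⟩ from hfe ⟨x, hx⟩]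
        exact hte ⟨x, hx⟩ hm
      refine ⟨t, ⟨ht, mem_normalizer_of_forall_conj_mem fun y hy => ?_⟩, fun y hy => ?_⟩
      · obtain ⟨x, hx, rfl⟩ := hf.surj hy
        rw [← key x hx]
        exact hf.map_mem (H93.mem_normalizerIn_conj hnN hx)
      · obtain ⟨x, hx, rfl⟩ := haP.surj hy
        show f (ai (a n * a x * (a n)⁻¹)) = t * f (ai (a x)) * t⁻¹
        rw [← ha.map_conj hnN (hQN hx), hai1 _ (H93.mem_normalizerIn_conj hnN hx), hai1 x hx, key x hx]
  obtain ⟨ψ, hψ, -, hψv⟩ := hg.comp haW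
  refine ⟨ψ, hψ, fun x hx hN => ?_⟩
  rw [hψv]
  show g (a x) = φ ⟨x, hx⟩
  rw [hge _ (haP.map_mem hx)]
  show f (ai (a x)) = _
  rw [hai1 x hx]
  exact hfe ⟨x, hx⟩

/-- Every centric subgroup has the prescribed automizer and a fully automized receptive conjugate. -/
theorem good_and_saturated (h : Hyps p F T 𝒜) : ∀ (U : Subgroup Ω), TCentric F T U →
    (∀ θ, Mor (invSystem F T 𝒜 h.le) U U θ → InA 𝒜 U θ) ∧
      ∃ Y, (invSystem F T 𝒜 h.le).IsConj U Y ∧ (invSystem F T 𝒜 h.le).IsFullyAutomized p Y ∧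
        (invSystem F T 𝒜 h.le).IsReceptive Y := by
  have hd : Data p F T 𝒜 := h.toData
  have := H96.finite_of_le hd.le
  intro U hU
  induction hn : Nat.card ↥T - Nat.card U using Nat.strong_induction_on generalizing U with
  | _ n ih =>
  obtain ⟨P, hconj, hP⟩ := H93.exists_isFullyNormalized (invSystem F T 𝒜 h.le) hU.1
  have hPc := tCentric_of_isConj hd hU hconj
  have hcard : Nat.card U = Nat.card P := H93.isConj_card_eq hconj
  have hrec : ∀ X, TCentric F T X → Nat.card P < Nat.card X → _ := fun X hX hlt =>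
    ih (Nat.card ↥T - Nat.card X)
      (by have := Subgroup.card_le_of_le hX.1; omega) X hX rfl
  have hov : SatC hd P := fun X hX hlt => (hrec X hX hlt).2
  have hgood : GoodC hd P := fun X hX hlt => (hrec X hX hlt).1
  have hreach := reach_all hd hPc hP hov
  have hgP : ∀ θ, Mor (invSystem F T 𝒜 h.le) P P θ → InA 𝒜 P θ := by
    rcases eq_or_lt_of_le hPc.1 with rfl | hlt
    · exact inA_top h
    · exact inA_of_class h hPc hlt hov hgood hreach
  obtain ⟨hA, hR⟩ := fullyAutomized_receptive h hPc hP hgP hreach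
  refine ⟨fun θ hθ => ?_, P, hconj, hA, hR⟩
  obtain ⟨φ, hφ, hr⟩ := id hconj
  obtain ⟨a, ha, -⟩ := H93.exists_mor hφ hr
  obtain ⟨ai, hai, hai1, -⟩ := ha.exists_inv
  refine (hgP _ (ha.comp (hθ.comp hai))).conj hd hPc.1 (mor_toF hai) fun y hy => ?_
  obtain ⟨x, hx, rfl⟩ := ha.surj hy
  show θ (ai (a x)) = ai (a (θ (ai (a x))))
  rw [hai1 x hx, hai1 _ (hθ.map_mem hx)]

/-- The inv is saturated. -/
theorem inv_isSaturated (h : Hyps p F T 𝒜) : (invSystem F T 𝒜 h.le).IsSaturated p := by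
  have hd : Data p F T 𝒜 := h.toData
  have := H96.finite_of_le hd.le
  refine H93.isSaturated_of_family (ℋ := {Q | TCentric F T Q}) (hd.isPGroup.to_le hd.le)
    (fun P hP Q hQ => tCentric_of_isConj hd hP hQ) (fun P hP => (good_and_saturated h P hP).2) ?_ ?_
  · intro D hD Q φ hφ
    exact hφ.2.2.2 D fun R a hR ha => hD R hR ((H96.mem_autGroup _ hR.1).1 ((actsIn_iff hR.1).1 (actsIn_inv hd hR ha)))
  · intro P hP hPc
    refine absurd ⟨hP.1, fun R hR y hy => ?_⟩ hPc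
    obtain ⟨φ, hφ, hr⟩ := hR
    obtain ⟨f, hf, -⟩ := H93.exists_mor hφ hr
    obtain ⟨a, d, Z, ha, hdm, he⟩ := exists_decomposition hd h.sylow h.saturated (fun _ _ hx => hx) hd.closed
      (fun P P' f hP hf => ⟨fun x => x, f, P', Mor.id F hd.le, hf, fun x _ => rfl⟩) hP.1 hf
    have hC : centralizerIn T Z ≤ Z := hP.2 Z hdm.isConj
    have hZT := hdm.le_right
    obtain ⟨z, hz, rfl⟩ := ha.surj hy.1
    have hzC : z ∈ centralizerIn T Z := H93.mem_centralizerIn.2 ⟨hz, fun w hw => by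
      refine ha.injOn (Subgroup.mul_mem _ (Subgroup.mul_mem _ hz (hZT hw)) (Subgroup.inv_mem _ hz)) (hZT hw) ?_
      rw [ha.map_conj hz (hZT hw)]
      obtain ⟨x, hx, rfl⟩ := hdm.surj hw
      rw [← he x hx]
      exact (H93.mem_centralizerIn.1 hy).2 _ (hf.map_mem hx)⟩
    obtain ⟨x, hx, hxe⟩ := hdm.surj (hC hzC)
    rw [← hxe, ← he x hx]
    exact hf.map_mem hx

end Cfsg.Agent.H24.InvMap
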