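import Cfsg.Agent.H24.InvMap.Saturated
import Cfsg.Agent.H35.Meet.Transporter
import Cfsg.Agent.H94.Meet.Normal

/-!
The system generated by an invariant family of automizers with the Sylow, restriction and lifting properties
is weakly normal.
-/

set_option autoImplicit false
set_option linter.unusedSectionVars false

namespace Cfsg.Agent.H24.InvMap

open Cfsg Cfsg.FusionSystem
open Cfsg.Agent.H93 (Mor)
open Cfsg.Agent.H94.Meet (TCentric actsIn_iff le_of_mor_closed range_eq_of_closed)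

variable {Ω : Type*} [Group Ω] {S T : Subgroup Ω} {F : FusionSystem S}
  {𝒜 : (U : Subgroup Ω) → Subgroup (MulAut U)} {p : ℕ} [Finite S] [Fact p.Prime]

/-- The hypotheses from the Sylow, restriction and lifting properties. -/
theorem Hyps.mk' (h : Data p F T 𝒜) (hbot : ∀ U : Subgroup Ω, ¬ U ≤ S → 𝒜 U = ⊥)
    (hsyl : SylowProp p F T 𝒜) (hres : RestrictProp p F T 𝒜) (hlift : LiftProp p F T 𝒜) :
    Hyps p F T 𝒜 where
  toData := h
  sylow := hsyl
  restrict := hres
  lift := hlift
  transporter := fun U => by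
    have hfin : Finite (𝒜 U) := by
      by_cases hU : U ≤ S
      · have := H96.finite_of_le hU
        have : Finite (MulAut U) := Finite.of_injective (fun e : MulAut U => (e : U → U)) DFunLike.coe_injective
        infer_instance
      · rw [hbot U hU]
        infer_instance
    intro P Φ h1 h2 h3 h4
    exact H35.Meet.transporter_induction P Φ h1 h2 h3 h4

/-- The generated system is weakly normal. -/
theorem invSystem_isWeaklyNormalIn (h : Hyps p F T 𝒜) :
    (invSystem F T 𝒜 h.le).IsWeaklyNormalIn F p := by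
  have hd : Data p F T 𝒜 := h.toData
  refine ⟨inv_isSaturated h, hd.saturated, fun P φ hφ => invSystem_le P hφ, hd.closed,
    fun P hPT φ hφ α hα => ?_, fun P hP φ hφ => ?_⟩
  · obtain ⟨a, ha, hae⟩ := H93.exists_mor_of_aut hd.le hα
    obtain ⟨f, hf, hfe⟩ := H93.exists_mor hφ rfl
    obtain ⟨V, -, hV⟩ := ha.restrict hPT
    obtain ⟨V', -, hV'⟩ := ha.restrict hf.le_right
    obtain ⟨g, hg, hge⟩ := mor_inv_conj hd ha P φ.range f hf V V' hV hV'
    have hVeq : V = (P.subgroupOf T).map (T.subtype.comp α.toMonoidHom) := by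
      ext y
      constructor
      · intro hy
        obtain ⟨x, hx, rfl⟩ := hV.surj hy
        exact ⟨⟨x, hPT hx⟩, hx, (hae ⟨x, hPT hx⟩).symm⟩
      · rintro ⟨x, hx, rfl⟩
        show ((α x : T) : Ω) ∈ V
        rw [← hae]
        exact hV.map_mem hx
    rw [← hVeq]
    obtain ⟨χ, hχ, -, hχv⟩ := hg
    refine ⟨χ, hχ, fun x hφx hαx => ?_⟩
    rw [hχv]
    show g ((α ⟨x, hPT x.2⟩ : T) : Ω) = _
    rw [← hae, hge x x.2, hfe, show a (φ x) = _ from hae ⟨φ x, hφx⟩]
  · obtain ⟨f, hf, hfe⟩ := H93.exists_mor hφ rfl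
    obtain ⟨a, d, Z, ha, hdm, hdec⟩ := exists_decomposition hd h.sylow h.saturated (fun _ _ hx => hx) hd.closed
      (fun P P' f hP hf => ⟨fun x => x, f, P', Mor.id F hd.le, hf, fun x _ => rfl⟩) hP hf
    obtain ⟨α, hα, hαe⟩ := ha.exists_aut
    obtain ⟨φ₀, hφ₀, -, hφ₀v⟩ := hdm
    refine ⟨α, hα, φ₀, hφ₀, fun x hx => ?_⟩
    rw [hαe, ← hfe, hdec x x.2]
    exact congrArg a (hφ₀v x).symm

end Cfsg.Agent.H24.InvMap
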